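import Cfsg.Agent.H23.Centr

set_option autoImplicit false

/-!
# Centralizers of root elements: the torus part and the final statement
-/

namespace Cfsg.Agent.H23

open Cfsg.Lie

variable {D : ChevalleyDatum} {F : Type*} [Field F] {z η : ℕ → ℕ → ℤ} {ctbl : List ℕ}

theorem diag_list_prod_apply (hS : Sem D F (zR D ctbl)) (hT : Tab D) (l : List (GL D.Idx F))
    (hl : ∀ g ∈ l, g ∈ D.diagonalSubgroup F) (k : D.Idx) :
    ((l.prod : GL D.Idx F) : Matrix D.Idx D.Idx F) k k = (l.map fun g : GL D.Idx F => ((g : GL D.Idx F) : Matrix D.Idx D.Idx F) k k).prod := by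
  induction l with
  | nil => simp
  | cons g l ih =>
    have hl' : ∀ g ∈ l, g ∈ D.diagonalSubgroup F := fun g hg => hl g (List.mem_cons_of_mem _ hg)
    rw [List.prod_cons, List.map_cons, List.prod_cons,
      diag_mul_apply hS hT g l.prod (hl g (List.mem_cons_self ..)) (Subgroup.list_prod_mem _ hl'), ih hl']

theorem hU_apply (hS : Sem D F z) (r : ℕ) (hr : r < D.nroots) (t : F) (ht : t ≠ 0) (k : D.Idx) :
    ((hU hS r t : GL D.Idx F) : Matrix D.Idx D.Idx F) k k = t ^ z r (ix D k) := by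
  rw [hU_val, hS.hdiag r hr t ht, Matrix.diagonal_apply_eq]

theorem hU_one (hS : Sem D F z) (r : ℕ) : hU hS r 1 = 1 := by
  rw [hU_eq, nU_mul_neg_one]

/-- Every element of `H` is a product of the `h_{p_j}(t_j)` over the fundamental roots. -/
theorem exists_simple_prod (hP : PackB D F (zR D ctbl) η) (hH : TabH D ctbl) (g : GL D.Idx F)
    (hg : g ∈ D.diagonalSubgroup F) :
    ∃ t : Fin D.rank → Fˣ,
      g = ((List.finRange D.rank).map fun j : Fin D.rank => hU hP.sem (D.simple j.val) ((t j : Fˣ) : F)).prod := by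
  have hS := hP.sem
  have hT := hP.tab
  set A : Fin D.rank → Fin D.rank → ℤ := fun i j => cartZ D ctbl i j with hA
  let sI : Fin D.rank → D.Idx := fun i => Sum.inr ⟨D.simple i, hT.simple_lt i i.2⟩
  have hentry : ∀ r < D.nroots, ∀ (t : F) (ht : t ≠ 0) (i : Fin D.rank),
      ((hU hS r t : GL D.Idx F) : Matrix D.Idx D.Idx F) (sI i) (sI i) =
        (((Units.mk0 t ht) ^ (zR D ctbl r (D.simple i)) : Fˣ) : F) := by
    intro r hr t ht i
    rw [hU_val, hS.hdiag r hr t ht, Matrix.diagonal_apply_eq, Units.val_zpow_eq_zpow_val, Units.val_mk0]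
    rfl
  have hsub : ∀ g ∈ D.diagonalSubgroup F, ∃ t : Fin D.rank → Fˣ, ∀ i,
      (g : Matrix D.Idx D.Idx F) (sI i) (sI i) = ((powHom A t i : Fˣ) : F) := by
    intro g hg
    unfold ChevalleyDatum.diagonalSubgroup at hg
    induction hg using Subgroup.closure_induction with
    | mem x hx =>
      obtain ⟨r, t, hr, ht, hx⟩ := hx
      rw [eq_wordU hS x _ hx]
      refine ⟨fun j => (Units.mk0 t ht) ^ ((D.coroot.getD r #[]).getD j 0), fun i => ?_⟩
      have h1 := hentry r hr t ht i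
      show ((hU hS r t : GL D.Idx F) : Matrix D.Idx D.Idx F) (sI i) (sI i) = _
      rw [h1, powHom_apply]
      congr 1
      rw [zR_eq_sum hH r hr, ← Fin.sum_univ_eq_sum_range
        (fun j => (D.coroot.getD r #[]).getD j 0 * zS (ctbl.getD j 0) D.nroots (D.simple i)) D.rank,
        ← prod_zpow_sum]
      apply Finset.prod_congr rfl
      intro j _
      rw [← zpow_mul]
      rfl
    | one =>
      refine ⟨1, fun i => ?_⟩
      rw [map_one, Units.val_one, Matrix.one_apply_eq]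
      rfl
    | mul x y hx hy ihx ihy =>
      obtain ⟨t, ht⟩ := ihx
      obtain ⟨t', ht'⟩ := ihy
      refine ⟨t * t', fun i => ?_⟩
      rw [diag_mul_apply hS hT x y hx hy, ht i, ht' i, map_mul, Pi.mul_apply, Units.val_mul]
    | inv x hx ihx =>
      obtain ⟨t, ht⟩ := ihx
      refine ⟨t⁻¹, fun i => ?_⟩
      rw [diag_inv_apply hS hT x hx, ht i, map_inv, Pi.inv_apply, Units.val_inv_eq_inv_val]
  obtain ⟨t, ht⟩ := hsub g hg
  refine ⟨t, ?_⟩
  set l := (List.finRange D.rank).map fun j : Fin D.rank => hU hS (D.simple j.val) ((t j : Fˣ) : F) with hl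
  have hmem : ∀ x ∈ l, x ∈ D.diagonalSubgroup F := by
    intro x hx
    obtain ⟨j, -, rfl⟩ := List.mem_map.mp hx
    exact hU_mem_diag hS _ (hT.simple_lt j j.2) _ (Units.ne_zero _)
  have hg'H : l.prod ∈ D.diagonalSubgroup F := Subgroup.list_prod_mem _ hmem
  have hm : l.prod⁻¹ * g ∈ D.diagonalSubgroup F := Subgroup.mul_mem _ (Subgroup.inv_mem _ hg'H) hg
  have h1 : l.prod⁻¹ * g = 1 := by
    apply diag_eq_one_of_simple hP _ hm
    intro i hi
    rw [diag_mul_apply hS hT _ _ (Subgroup.inv_mem _ hg'H) hg, diag_inv_apply hS hT _ hg'H]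
    have e1 : ((l.prod : GL D.Idx F) : Matrix D.Idx D.Idx F) (sI ⟨i, hi⟩) (sI ⟨i, hi⟩) =
        (g : Matrix D.Idx D.Idx F) (sI ⟨i, hi⟩) (sI ⟨i, hi⟩) := by
      rw [ht ⟨i, hi⟩, diag_list_prod_apply hS hT l hmem, hl, List.map_map, powHom_apply, Units.coe_prod,
        Fin.prod_univ_def]
      congr 1
      apply List.map_congr_left
      intro j _
      show ((hU hS (D.simple j) ((t j : Fˣ) : F) : GL D.Idx F) : Matrix D.Idx D.Idx F) (sI ⟨i, hi⟩) (sI ⟨i, hi⟩) =
        ((t j ^ A ⟨i, hi⟩ j : Fˣ) : F)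
      rw [hU_apply hS _ (hT.simple_lt j j.2) _ (Units.ne_zero _), Units.val_zpow_eq_zpow_val]
      congr 1
      exact zR_simple hT hH j j.2 _
    show (((l.prod : GL D.Idx F) : Matrix D.Idx D.Idx F) (sI ⟨i, hi⟩) (sI ⟨i, hi⟩))⁻¹ *
      (g : Matrix D.Idx D.Idx F) (sI ⟨i, hi⟩) (sI ⟨i, hi⟩) = 1
    rw [e1]
    exact inv_mul_cancel₀ (diag_ne_zero hS hT g hg _)
  calc g = l.prod * (l.prod⁻¹ * g) := by group
    _ = l.prod := by rw [h1, mul_one]

/-- An element of `H` centralising `x_r(1)` lies in the subgroup generated by the root subgroups of the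
fundamental roots orthogonal to `r` and their negatives. -/
theorem diag_mem_rootGen (hP : PackB D F (zR D ctbl) η) (hH : TabH D ctbl) (r : ℕ) (hr : r < D.nroots)
    (P : ℕ → Prop) (i0 : ℕ) (hi0 : i0 < D.rank)
    (h2 : ∀ j < D.rank, zR D ctbl (D.simple j) r = (if j = i0 then 1 else 0) ∧
      (j ≠ i0 → P (D.simple j) ∧ P (D.neg (D.simple j))))
    (h : GL D.Idx F) (hh : h ∈ D.diagonalSubgroup F) (hcomm : h * xU hP.sem r 1 = xU hP.sem r 1 * h) :
    h ∈ rootGen D F P := by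
  have hS := hP.sem
  have hT := hP.tab
  obtain ⟨t, rfl⟩ := exists_simple_prod hP hH h hh
  set l := (List.finRange D.rank).map fun j : Fin D.rank => hU hS (D.simple j.val) ((t j : Fˣ) : F) with hl
  have hmem : ∀ x ∈ l, x ∈ D.diagonalSubgroup F := by
    intro x hx
    obtain ⟨j, -, rfl⟩ := List.mem_map.mp hx
    exact hU_mem_diag hS _ (hT.simple_lt j j.2) _ (Units.ne_zero _)
  obtain ⟨χ, hχ⟩ := diagonal_le_torus hS hT hh
  have hconj := isTorus_conj hS χ _ hχ r hr 1
  have e1 : χ r = 1 := by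
    have e0 : l.prod * xU hS r 1 * l.prod⁻¹ = xU hS r 1 := by rw [hcomm]; group
    rw [e0, mul_one] at hconj
    exact (xU_injective hS hT hP.tab2 r hr _ _ hconj).symm
  have e2 : χ r = ((t ⟨i0, hi0⟩ : Fˣ) : F) := by
    have h3 : ((l.prod : GL D.Idx F) : Matrix D.Idx D.Idx F) (Sum.inr ⟨r, hr⟩) (Sum.inr ⟨r, hr⟩) = χ r := by
      rw [hχ.2.2.2, Matrix.diagonal_apply_eq]; rfl
    rw [← h3, diag_list_prod_apply hS hT l hmem, hl, List.map_map, ← Fin.prod_univ_def,
      Finset.prod_eq_single ⟨i0, hi0⟩]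
    · show ((hU hS (D.simple i0) ((t ⟨i0, hi0⟩ : Fˣ) : F) : GL D.Idx F) : Matrix D.Idx D.Idx F)
        (Sum.inr ⟨r, hr⟩) (Sum.inr ⟨r, hr⟩) = _
      rw [hU_apply hS _ (hT.simple_lt i0 hi0) _ (Units.ne_zero _)]
      show ((t ⟨i0, hi0⟩ : Fˣ) : F) ^ zR D ctbl (D.simple i0) r = _
      rw [(h2 i0 hi0).1, if_pos rfl, zpow_one]
    · intro j _ hj
      show ((hU hS (D.simple j) ((t j : Fˣ) : F) : GL D.Idx F) : Matrix D.Idx D.Idx F)
        (Sum.inr ⟨r, hr⟩) (Sum.inr ⟨r, hr⟩) = _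
      rw [hU_apply hS _ (hT.simple_lt j j.2) _ (Units.ne_zero _)]
      show ((t j : Fˣ) : F) ^ zR D ctbl (D.simple j) r = _
      rw [(h2 j j.2).1, if_neg (fun e => hj (Fin.ext e)), zpow_zero]
    · intro h
      exact absurd (Finset.mem_univ _) h
  have ht0 : ((t ⟨i0, hi0⟩ : Fˣ) : F) = 1 := by rw [← e2, e1]
  apply Subgroup.list_prod_mem
  intro x hx
  obtain ⟨j, -, rfl⟩ := List.mem_map.mp hx
  by_cases hj : (j : ℕ) = i0
  · have e : j = ⟨i0, hi0⟩ := Fin.ext hj
    rw [e, ht0, hU_one]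
    exact Subgroup.one_mem _
  · obtain ⟨p1, p2⟩ := (h2 j j.2).2 hj
    exact hU_mem_rootGen hS P _ p1 p2 _

/-- The centralizer of `x_r(1)` in characteristic two, when `U` centralises `X_r`: it is generated by `U` and
the root subgroups of the negatives of the fundamental roots orthogonal to `r`. -/
theorem centralizer_root_eq [CharP F 2] (hP : PackB D F (zR D ctbl) η) (hH : TabH D ctbl)
    (hPc : ∀ r s, r < D.nroots → s < D.nroots → s ≠ r → s ≠ D.neg r → Pc D F r s)
    (r : ℕ) (hr : r < D.nroots) (L : List ℕ) (i0 : ℕ) (hi0 : i0 < D.rank)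
    (hL : ∀ s ∈ L, s < D.nroots)
    (h1 : ∀ i < D.rank, D.reflectRoot i r = r → D.neg (D.simple i) ∈ L)
    (h2 : ∀ j < D.rank, zR D ctbl (D.simple j) r = (if j = i0 then 1 else 0) ∧
      (j ≠ i0 → D.neg (D.simple j) ∈ L))
    (h3 : ∀ s < D.nroots, (D.IsPosRoot s ∨ s ∈ L) → s ≠ r →
      s ≠ D.neg r ∧ ∀ c ∈ D.commTerms r s, (2 : ℤ) ∣ c.2.1)
    (t : GL D.Idx F) (ht : (t : Matrix D.Idx D.Idx F) = D.x F r 1) :
    D.group F ⊓ Subgroup.centralizer {t} = rootGen D F (fun s => D.IsPosRoot s ∨ s ∈ L) := by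
  have hS := hP.sem
  have hT := hP.tab
  have htU : t = xU hS r 1 := eq_xU hS t r 1 ht
  set P : ℕ → Prop := fun s => D.IsPosRoot s ∨ s ∈ L with hPdef
  have hPlt : ∀ s, P s → s < D.nroots := by
    rintro s (h | h)
    · exact h.1
    · exact hL s h
  have hcP : ∀ s, P s → CommX hS r s := by
    intro s hs
    by_cases hsr : s = r
    · rw [hsr]; exact commX_self hS r
    · obtain ⟨hn, he⟩ := h3 s (hPlt s hs) hs hsr
      exact commX_of_even hS r s (hPc r s hr (hPlt s hs) hsr hn) he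
  have hc : ∀ s, D.IsPosRoot s → CommX hS r s := fun s hs => hcP s (Or.inl hs)
  have hQc : rootGen D F P ≤ Subgroup.centralizer {t} := by
    apply rootGen_le hS
    intro s hs u
    rw [Subgroup.mem_centralizer_iff]
    intro y hy
    rw [Set.mem_singleton_iff.mp hy, htU]
    exact (hcP s hs 1 u).symm
  apply le_antisymm
  · rintro g ⟨hgG, hgC⟩
    have hgt : g * xU hS r 1 * g⁻¹ = xU hS r 1 := by
      have e0 := Subgroup.mem_centralizer_iff.mp hgC t (Set.mem_singleton t)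
      rw [htU] at e0
      rw [← e0]; group
    have hscal := mem_normalizer_of_conj hP r hr hc g hgG 1 1 one_ne_zero hgt
    have hgP := normalizer_root_le_parabolic hP r hr hc ⟨mem_normalizer_of_scal hS g r hscal, hgG⟩
    have hgQ := parabolic_le_rootGen_sup hS hT _ P (fun s hs => Or.inl hs)
      (fun i hi hiJ => Or.inr (h1 i hi hiJ)) hgP
    obtain ⟨q, hq, h, hh, rfl⟩ := exists_mul_of_mem_sup _ _ (diagonal_le_normalizer_rootGen hS P hPlt) g hgQ
    apply Subgroup.mul_mem _ hq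
    apply diag_mem_rootGen hP hH r hr P i0 hi0
      (fun j hj => ⟨(h2 j hj).1, fun hne => ⟨Or.inl (hT.simple_pos j hj), Or.inr ((h2 j hj).2 hne)⟩⟩) h hh
    have hqc := Subgroup.mem_centralizer_iff.mp (hQc hq) t (Set.mem_singleton t)
    have hgc := Subgroup.mem_centralizer_iff.mp hgC t (Set.mem_singleton t)
    rw [htU] at hqc hgc
    calc h * xU hS r 1 = q⁻¹ * (q * h * xU hS r 1) := by group
      _ = q⁻¹ * (xU hS r 1 * (q * h)) := by rw [hgc]
      _ = q⁻¹ * (xU hS r 1 * q) * h := by group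
      _ = q⁻¹ * (q * xU hS r 1) * h := by rw [hqc]
      _ = xU hS r 1 * h := by group
  · apply le_inf
    · exact rootGen_le hS P _ (fun s _ u => xU_mem_group hS s u)
    · exact hQc

end Cfsg.Agent.H23
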