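import Cfsg.Agent.H23.Centr2
import Cfsg.Agent.H23.ChainF

set_option autoImplicit false

/-!
# Centralizers of root elements: conversion of the table checks, and pairs of conjugate root subgroups
-/

namespace Cfsg.Agent.H23

open Cfsg.Lie

variable {D : ChevalleyDatum} {F : Type*} [Field F] {z η : ℕ → ℕ → ℤ} {ctbl : List ℕ}

/-- All the constants of a list of terms of the commutator formula are even. -/
def evenB (l : List (ℕ × ℤ × ℕ × ℕ)) : Bool := l.all fun c => decide (c.2.1 % 2 = 0)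

theorem h3_of_fast {CH : ℕ} (hCh : ChFOK D CH) (hHalf : ∀ r < D.nroots, D.IsPosRoot r ↔ D.nroots / 2 ≤ r)
    (r k : ℕ) (hk : D.neg r = k) (L : List ℕ)
    (h : ∀ s < D.nroots, (D.nroots / 2 ≤ s ∨ s ∈ L) → s ≠ r →
      s ≠ k ∧ evenB (commTermsG (chainF D.nroots CH) r s) = true) :
    ∀ s < D.nroots, (D.IsPosRoot s ∨ s ∈ L) → s ≠ r →
      s ≠ D.neg r ∧ ∀ c ∈ D.commTerms r s, (2 : ℤ) ∣ c.2.1 := by
  intro s hs hP hsr
  obtain ⟨h1, h2⟩ := h s hs (hP.imp (hHalf s hs).mp id) hsr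
  rw [hk, hCh.commTerms r s]
  refine ⟨h1, fun c hc => ?_⟩
  have h3 := List.all_eq_true.mp h2 c hc
  exact Int.dvd_of_emod_eq_zero (of_decide_eq_true h3)

theorem commX_pos_of_h3 [CharP F 2] (hS : Sem D F z)
    (hPc : ∀ r s, r < D.nroots → s < D.nroots → s ≠ r → s ≠ D.neg r → Pc D F r s)
    (r : ℕ) (hr : r < D.nroots) (L : List ℕ)
    (h3 : ∀ s < D.nroots, (D.IsPosRoot s ∨ s ∈ L) → s ≠ r →
      s ≠ D.neg r ∧ ∀ c ∈ D.commTerms r s, (2 : ℤ) ∣ c.2.1) :
    ∀ s, D.IsPosRoot s → CommX hS r s := by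
  intro s hs
  by_cases hsr : s = r
  · rw [hsr]; exact commX_self hS r
  · obtain ⟨hn, he⟩ := h3 s hs.1 (Or.inl hs) hsr
    exact commX_of_even hS r s (hPc r s hr hs.1 hsr hn) he

theorem cert_of_fast {rT : List ℕ} (hTT : TabT D rT) (hHalf : ∀ r < D.nroots, D.IsPosRoot r ↔ D.nroots / 2 ≤ r)
    (r : ℕ) (hr : r < D.nroots) (k : ℕ) (hk : D.neg r = k) (C : List (List ℕ))
    (h : ∀ s < D.nroots, s ≠ k → (∀ i ∈ C.getD s [], i < D.rank) ∧
      D.nroots / 2 ≤ reflWT rT (C.getD s []) r ∧ D.nroots / 2 ≤ reflWT rT (C.getD s []) s) :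
    ∀ s < D.nroots, s ≠ D.neg r → (∀ i ∈ C.getD s [], i < D.rank) ∧
      D.IsPosRoot (reflW D (C.getD s []) r) ∧ D.IsPosRoot (reflW D (C.getD s []) s) := by
  intro s hs hsn
  rw [hk] at hsn
  obtain ⟨h1, h2, h3⟩ := h s hs hsn
  have hT := hTT.tab
  refine ⟨h1, ?_, ?_⟩
  · rw [hHalf _ (reflW_lt hT _ h1 r hr), reflW_eq hTT _ h1 r hr]; exact h2
  · rw [hHalf _ (reflW_lt hT _ h1 s hs), reflW_eq hTT _ h1 s hs]; exact h3

theorem rootSubgroup_map_of_scal (hS : Sem D F z) (g : GL D.Idx F) (r s : ℕ) (h : Scal hS g r s) :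
    (D.rootSubgroup F r).map (MulAut.conj g).toMonoidHom = D.rootSubgroup F s := by
  obtain ⟨κ, hκ, e⟩ := h
  unfold ChevalleyDatum.rootSubgroup
  rw [MonoidHom.map_closure]
  congr 1
  ext x
  constructor
  · rintro ⟨y, ⟨t, hy⟩, rfl⟩
    refine ⟨κ * t, ?_⟩
    rw [eq_xU hS y r t hy]
    show ((g * xU hS r t * g⁻¹ : GL D.Idx F) : Matrix D.Idx D.Idx F) = _
    rw [e t]; rfl
  · rintro ⟨t, hx⟩
    refine ⟨xU hS r (κ⁻¹ * t), ⟨_, rfl⟩, ?_⟩
    show g * xU hS r (κ⁻¹ * t) * g⁻¹ = x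
    rw [e, ← mul_assoc, mul_inv_cancel₀ hκ, one_mul]
    exact (eq_xU hS x s t hx).symm

theorem rootSubgroup_le_pos (s : ℕ) (hs : D.IsPosRoot s) : D.rootSubgroup F s ≤ D.posUnipotent F := by
  unfold ChevalleyDatum.rootSubgroup ChevalleyDatum.posUnipotent
  apply Subgroup.closure_mono
  rintro x ⟨t, hx⟩
  exact ⟨s, t, hs, hx⟩

theorem isPGroup_of_conj_le {G : Type*} [Group G] {p : ℕ} (K U : Subgroup G) (a : G)
    (h : K.map (MulAut.conj a).toMonoidHom ≤ U) (hU : IsPGroup p ↥U) : IsPGroup p ↥K := by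
  let ϕ : ↥K →* ↥U :=
    { toFun := fun x => ⟨a * x * a⁻¹, h ⟨x, x.2, rfl⟩⟩
      map_one' := by apply Subtype.ext; simp
      map_mul' := by intro x y; apply Subtype.ext; simp }
  apply hU.of_injective ϕ
  intro x y hxy
  have h1 : a * (x : G) * a⁻¹ = a * (y : G) * a⁻¹ := congrArg Subtype.val hxy
  apply Subtype.ext
  simpa using h1

theorem isPGroup_two_posUnipotent [Fintype F] [CharP F 2] (N : ℕ)
    (h : Nat.card ↥(D.posUnipotent F) = Fintype.card F ^ N) : IsPGroup 2 ↥(D.posUnipotent F) := by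
  obtain ⟨n, -, hn⟩ := FiniteField.card F 2
  apply IsPGroup.of_card (n := n * N)
  rw [h, hn, pow_mul]

/-- Two conjugates of a root subgroup `X_r` centralised by `U` generate a `2`-group or a conjugate of
`⟨X_r, X_{-r}⟩`. -/
theorem conj_pair (hP : PackB D F z η) (hU2 : IsPGroup 2 ↥(D.posUnipotent F)) (r : ℕ) (hr : r < D.nroots)
    (hc : ∀ s, D.IsPosRoot s → CommX hP.sem r s) (cert : ℕ → List ℕ)
    (hcert : ∀ s < D.nroots, s ≠ D.neg r → (∀ i ∈ cert s, i < D.rank) ∧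
      D.IsPosRoot (reflW D (cert s) r) ∧ D.IsPosRoot (reflW D (cert s) s))
    (g : GL D.Idx F) (hg : g ∈ D.group F) :
    IsPGroup 2 ↥(D.rootSubgroup F r ⊔ (D.rootSubgroup F r).map (MulAut.conj g).toMonoidHom) ∨
    ∃ h ∈ D.group F, (D.rootSubgroup F r ⊔ (D.rootSubgroup F r).map (MulAut.conj g).toMonoidHom).map
      (MulAut.conj h).toMonoidHom = D.rootSubgroup F r ⊔ D.rootSubgroup F (D.neg r) := by
  have hS := hP.sem
  have hT := hP.tab
  obtain ⟨n, hn, b₁, hb₁, b₂, hb₂, rfl⟩ := bruhat_GL hP g hg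
  obtain ⟨h, hh, w, hw, rfl⟩ := exists_word_of_mem_monomial hP n hn
  have hs := reflW_lt hT w hw r hr
  have S2 := scal_borel hS hT r hr hc b₂ hb₂
  have S1 := scal_borel hS hT r hr hc b₁ hb₁
  have Sn : Scal hS (h * nWU hS w) r (reflW D w r) :=
    (scal_nWU hS hP.semN hT w hw r hr).mul (scal_diag hS hT h hh _ hs)
  have Snb : Scal hS (h * nWU hS w * b₂) r (reflW D w r) := S2.mul Sn
  have e1 : (MulAut.conj (b₁ * (h * nWU hS w) * b₂)).toMonoidHom =
      (MulAut.conj b₁).toMonoidHom.comp (MulAut.conj (h * nWU hS w * b₂)).toMonoidHom := by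
    refine MonoidHom.ext fun x => ?_
    show (b₁ * (h * nWU hS w) * b₂) * x * (b₁ * (h * nWU hS w) * b₂)⁻¹ =
      b₁ * ((h * nWU hS w * b₂) * x * (h * nWU hS w * b₂)⁻¹) * b₁⁻¹
    group
  have key : D.rootSubgroup F r ⊔
      (D.rootSubgroup F r).map (MulAut.conj (b₁ * (h * nWU hS w) * b₂)).toMonoidHom =
      (D.rootSubgroup F r ⊔ D.rootSubgroup F (reflW D w r)).map (MulAut.conj b₁).toMonoidHom := by
    rw [Subgroup.map_sup, rootSubgroup_map_of_scal hS b₁ r r S1, ← rootSubgroup_map_of_scal hS _ r _ Snb,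
      Subgroup.map_map, e1]
  rw [key]
  by_cases hsn : reflW D w r = D.neg r
  · right
    refine ⟨b₁⁻¹, Subgroup.inv_mem _ (borel_le_group hS hb₁), ?_⟩
    rw [Subgroup.map_map, hsn]
    have e2 : (MulAut.conj b₁⁻¹).toMonoidHom.comp (MulAut.conj b₁).toMonoidHom = MonoidHom.id _ := by
      refine MonoidHom.ext fun x => ?_
      show b₁⁻¹ * (b₁ * x * b₁⁻¹) * b₁⁻¹⁻¹ = x
      group
    rw [e2, Subgroup.map_id]
  · left
    obtain ⟨hv, hp1, hp2⟩ := hcert _ hs hsn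
    have Sv1 := scal_nWU hS hP.semN hT _ hv r hr
    have Sv2 := scal_nWU hS hP.semN hT _ hv _ hs
    apply isPGroup_of_conj_le _ (D.posUnipotent F) (nWU hS (cert (reflW D w r)) * b₁⁻¹) _ hU2
    rw [Subgroup.map_map]
    have e2 : (MulAut.conj (nWU hS (cert (reflW D w r)) * b₁⁻¹)).toMonoidHom.comp
        (MulAut.conj b₁).toMonoidHom = (MulAut.conj (nWU hS (cert (reflW D w r)))).toMonoidHom := by
      refine MonoidHom.ext fun x => ?_
      show (nWU hS (cert (reflW D w r)) * b₁⁻¹) * (b₁ * x * b₁⁻¹) * (nWU hS (cert (reflW D w r)) * b₁⁻¹)⁻¹ =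
        nWU hS (cert (reflW D w r)) * x * (nWU hS (cert (reflW D w r)))⁻¹
      group
    rw [e2, Subgroup.map_sup, rootSubgroup_map_of_scal hS _ r _ Sv1, rootSubgroup_map_of_scal hS _ _ _ Sv2]
    exact sup_le (rootSubgroup_le_pos _ hp1) (rootSubgroup_le_pos _ hp2)

theorem rootGen_pos_or_mem (hS : Sem D F z) (L : List ℕ) :
    rootGen D F (fun s => D.IsPosRoot s ∨ s ∈ L) =
      D.posUnipotent F ⊔ Subgroup.closure {g : GL D.Idx F | ∃ s ∈ L, ∃ c : F,
        (g : Matrix D.Idx D.Idx F) = D.x F s c} := by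
  apply le_antisymm
  · apply rootGen_le hS
    rintro s (hs | hs) u
    · exact Subgroup.mem_sup_left (xU_mem_rootGen hS D.IsPosRoot s hs u)
    · exact Subgroup.mem_sup_right (Subgroup.subset_closure ⟨s, hs, u, rfl⟩)
  · apply sup_le
    · exact rootGen_mono hS _ _ (fun s hs => Or.inl hs)
    · rw [Subgroup.closure_le]
      rintro g ⟨s, hs, c, hg⟩
      rw [eq_xU hS g s c hg]
      exact xU_mem_rootGen hS _ s (Or.inr hs) c

theorem rootSubgroup_le_rootGen (hS : Sem D F z) (P : ℕ → Prop) (s : ℕ) (hs : P s) :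
    D.rootSubgroup F s ≤ rootGen D F P := by
  unfold ChevalleyDatum.rootSubgroup
  rw [Subgroup.closure_le]
  rintro g ⟨c, hg⟩
  rw [eq_xU hS g s c hg]
  exact xU_mem_rootGen hS _ s hs c

theorem rootGen_pos_or_one (hS : Sem D F z) (a : ℕ) :
    rootGen D F (fun s => D.IsPosRoot s ∨ s ∈ ([a] : List ℕ)) = D.posUnipotent F ⊔ D.rootSubgroup F a := by
  apply le_antisymm
  · apply rootGen_le hS
    rintro s (hs | hs) u
    · exact Subgroup.mem_sup_left (xU_mem_rootGen hS D.IsPosRoot s hs u)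
    · rw [List.mem_singleton] at hs
      rw [hs]
      exact Subgroup.mem_sup_right (xU_mem_rootSubgroup hS a u)
  · apply sup_le
    · exact rootGen_mono hS _ _ (fun s hs => Or.inl hs)
    · exact rootSubgroup_le_rootGen hS _ a (Or.inr (by simp))

theorem rootGen_pos_or_three (hS : Sem D F z) (a b c : ℕ) :
    rootGen D F (fun s => D.IsPosRoot s ∨ s ∈ ([a, b, c] : List ℕ)) =
      D.posUnipotent F ⊔ D.rootSubgroup F a ⊔ D.rootSubgroup F b ⊔ D.rootSubgroup F c := by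
  apply le_antisymm
  · apply rootGen_le hS
    rintro s (hs | hs) u
    · exact Subgroup.mem_sup_left (Subgroup.mem_sup_left (Subgroup.mem_sup_left
        (xU_mem_rootGen hS D.IsPosRoot s hs u)))
    · simp only [List.mem_cons, List.not_mem_nil, or_false] at hs
      rcases hs with rfl | rfl | rfl
      · exact Subgroup.mem_sup_left (Subgroup.mem_sup_left (Subgroup.mem_sup_right (xU_mem_rootSubgroup hS _ u)))
      · exact Subgroup.mem_sup_left (Subgroup.mem_sup_right (xU_mem_rootSubgroup hS _ u))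
      · exact Subgroup.mem_sup_right (xU_mem_rootSubgroup hS _ u)
  · refine sup_le (sup_le (sup_le ?_ ?_) ?_) ?_
    · exact rootGen_mono hS _ _ (fun s hs => Or.inl hs)
    · exact rootSubgroup_le_rootGen hS _ a (Or.inr (by simp))
    · exact rootSubgroup_le_rootGen hS _ b (Or.inr (by simp))
    · exact rootSubgroup_le_rootGen hS _ c (Or.inr (by simp))

end Cfsg.Agent.H23
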