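import Cfsg.Agent.H23.BN2
import Cfsg.Agent.H8BN

set_option autoImplicit false

/-!
# Elements of `H` conjugate in the Chevalley group are conjugate under `N`
-/

namespace Cfsg.Agent.H23

open Cfsg.Lie

section Mat

variable {ι : Type*} {F : Type*} [Field F] {ht : ι → ℕ}

theorem Tri.sub {A B : Matrix ι ι F} (hA : Tri ht A) (hB : Tri ht B) : Tri ht (A - B) := by
  intro i j h
  by_cases h1 : A i j = 0
  · apply hB i j
    intro h2; apply h; rw [Matrix.sub_apply, h1, h2, sub_zero]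
  · exact hA i j h1

variable [Fintype ι] [DecidableEq ι]

theorem Tri.pow {A : Matrix ι ι F} (hA : Tri ht A) (k : ℕ) : Tri ht (A ^ k) := by
  induction k with
  | zero => rw [pow_zero]; exact Tri.one
  | succ k ih => rw [pow_succ]; exact ih.mul hA

theorem Tri.pow_diag {A : Matrix ι ι F} (hA : Tri ht A) (k : ℕ) (i : ι) : (A ^ k) i i = A i i ^ k := by
  induction k with
  | zero => simp
  | succ k ih => rw [pow_succ, (hA.pow k).mul_diag hA, ih, pow_succ]

theorem NilK.pow {M : Matrix ι ι F} (h : NilK ht 1 M) (k : ℕ) : NilK ht k (M ^ k) := by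
  induction k with
  | zero =>
    rw [pow_zero]
    intro i j hij
    by_cases e : i = j
    · subst e; omega
    · exact absurd (Matrix.one_apply_ne e) hij
  | succ k ih => rw [pow_succ]; exact ih.mul h

omit [Fintype ι] [DecidableEq ι] in
theorem NilK.eq_zero {M : Matrix ι ι F} (K : ℕ) (hK : ∀ i, ht i < K) (h : NilK ht K M) : M = 0 := by
  ext i j
  by_contra hne
  have := h i j hne
  have := hK i
  omega

end Mat

variable {D : ChevalleyDatum} {F : Type*} [Field F] {z : ℕ → ℕ → ℤ} {η : ℕ → ℕ → ℤ}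

theorem diag_commute (hS : Sem D F z) (hT : Tab D) (a b : GL D.Idx F) (ha : a ∈ D.diagonalSubgroup F)
    (hb : b ∈ D.diagonalSubgroup F) : a * b = b * a := by
  obtain ⟨χ, -, -, -, e⟩ := diagonal_le_torus hS hT ha
  obtain ⟨χ', -, -, -, e'⟩ := diagonal_le_torus hS hT hb
  apply Units.ext
  rw [Units.val_mul, Units.val_mul, e, e', Matrix.diagonal_mul_diagonal, Matrix.diagonal_mul_diagonal]
  congr 1
  funext k
  exact mul_comm _ _

theorem borel_conj_diag (hS : Sem D F z) (hT : Tab D) (b : GL D.Idx F) (hb : b ∈ D.borelSubgroup F)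
    (h : GL D.Idx F) (hh : h ∈ D.diagonalSubgroup F) : ∃ u ∈ D.posUnipotent F, b * h * b⁻¹ = h * u := by
  have hnorm : D.diagonalSubgroup F ≤ Subgroup.normalizer (D.posUnipotent F : Set (GL D.Idx F)) :=
    diagonal_le_normalizer_rootGen hS D.IsPosRoot (fun r hr => hr.1)
  obtain ⟨u₀, hu₀, h₀, hh₀, rfl⟩ := exists_mul_of_mem_sup _ _ hnorm b hb
  refine ⟨h⁻¹ * u₀ * h * u₀⁻¹, ?_, ?_⟩
  · apply Subgroup.mul_mem _ _ (Subgroup.inv_mem _ hu₀)
    have := (Subgroup.mem_normalizer_iff.mp (hnorm (Subgroup.inv_mem _ hh)) u₀).mp hu₀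
    rwa [inv_inv] at this
  · have e : h₀ * h = h * h₀ := diag_commute hS hT _ _ hh₀ hh
    have e2 : u₀ * h₀ * h * (u₀ * h₀)⁻¹ = u₀ * (h₀ * h) * h₀⁻¹ * u₀⁻¹ := by group
    rw [e2, e]
    group

/-- Two elements of `H` conjugate in the Chevalley group are conjugate under `N`. -/
theorem conj_diag_monomial (hP : PackB D F z η) (h₁ h₂ g : GL D.Idx F) (h1 : h₁ ∈ D.diagonalSubgroup F)
    (h2 : h₂ ∈ D.diagonalSubgroup F) (hg : g ∈ D.group F) (hc : g * h₁ * g⁻¹ = h₂) :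
    ∃ n ∈ D.monomialSubgroup F, n * h₁ * n⁻¹ = h₂ := by
  have hS := hP.sem
  have hT := hP.tab
  obtain ⟨n, hn, hgn⟩ := Cfsg.H8BN.exists_mem_dc (bnPair hP) ⟨g, hg⟩
  obtain ⟨b, hb, b', hb', e⟩ := (Cfsg.H8BN.mem_dc (bnPair hP)).mp hgn
  rw [bnPair_N, Subgroup.mem_subgroupOf] at hn
  rw [bnPair_B, Subgroup.mem_subgroupOf] at hb hb'
  have e' : g = (b : GL D.Idx F) * (n : GL D.Idx F) * (b' : GL D.Idx F) := congrArg Subtype.val e
  set B := (b : GL D.Idx F) with hBdef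
  set B' := (b' : GL D.Idx F) with hB'def
  set N := (n : GL D.Idx F) with hNdef
  refine ⟨N, hn, ?_⟩
  obtain ⟨u₁, hu₁, e₁⟩ := borel_conj_diag hS hT B' hb' h₁ h1
  obtain ⟨u₂, hu₂, e₂⟩ := borel_conj_diag hS hT B⁻¹ (Subgroup.inv_mem _ hb) h₂ h2
  rw [inv_inv] at e₂
  -- `N (h₁ u₁) N⁻¹ = h₂ u₂`
  have e3 : N * (h₁ * u₁) * N⁻¹ = h₂ * u₂ := by
    rw [← e₁, ← e₂, ← hc, e']
    group
  set h' := (N * h₁ * N⁻¹)⁻¹ * h₂ with hh'
  have hh'H : h' ∈ D.diagonalSubgroup F := by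
    apply Subgroup.mul_mem _ (Subgroup.inv_mem _ _) h2
    exact (Subgroup.mem_normalizer_iff.mp
      (monomial_le_normalizer_diag hS hP.semN hT hP.etaNeg hn) h₁).mp h1
  have e4 : N * u₁ * N⁻¹ = h' * u₂ := by
    have : N * u₁ * N⁻¹ = (N * h₁ * N⁻¹)⁻¹ * (N * (h₁ * u₁) * N⁻¹) := by group
    rw [this, e3, hh']
    exact (mul_assoc _ _ _).symm
  -- the left side is unipotent, the right side is triangular with diagonal `h'`
  obtain ⟨χ, -, -, -, eχ⟩ := diagonal_le_torus hS hT hh'H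
  have hu1 : NilK (lvl D) 1 ((u₁ : Matrix D.Idx D.Idx F) - 1) := (posUnipotent_le_uni hS hu₁).1
  have hu2 : NilK (lvl D) 1 ((u₂ : Matrix D.Idx D.Idx F) - 1) := (posUnipotent_le_uni hS hu₂).1
  set K := 2 * D.nroots + 1 with hK
  have hlvl : ∀ i : D.Idx, lvl D i < K := by
    intro i
    have := htN_le D.nroots (ix D i)
    show htN D.nroots (ix D i) < K
    omega
  have hz1 : ((u₁ : Matrix D.Idx D.Idx F) - 1) ^ K = 0 := NilK.eq_zero K hlvl (hu1.pow K)
  have hz2 : (((N * u₁ * N⁻¹ : GL D.Idx F) : Matrix D.Idx D.Idx F) - 1) ^ K = 0 := by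
    have e5 : ((N * u₁ * N⁻¹ : GL D.Idx F) : Matrix D.Idx D.Idx F) - 1 =
        (N : Matrix D.Idx D.Idx F) * ((u₁ : Matrix D.Idx D.Idx F) - 1) * ((N⁻¹ : GL D.Idx F) : Matrix D.Idx D.Idx F) := by
      rw [Units.val_mul, Units.val_mul, Matrix.mul_sub, Matrix.sub_mul, Matrix.mul_one, val_mul_inv]
    have e6 : ∀ k : ℕ, ((N : Matrix D.Idx D.Idx F) * ((u₁ : Matrix D.Idx D.Idx F) - 1) *
        ((N⁻¹ : GL D.Idx F) : Matrix D.Idx D.Idx F)) ^ k =
        (N : Matrix D.Idx D.Idx F) * ((u₁ : Matrix D.Idx D.Idx F) - 1) ^ k *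
          ((N⁻¹ : GL D.Idx F) : Matrix D.Idx D.Idx F) := by
      intro k
      induction k with
      | zero => rw [pow_zero, pow_zero, Matrix.mul_one, val_mul_inv]
      | succ k ih =>
        rw [pow_succ, ih, pow_succ]
        have e7 : ((N⁻¹ : GL D.Idx F) : Matrix D.Idx D.Idx F) * (N : Matrix D.Idx D.Idx F) = 1 := by
          rw [← Units.val_mul, inv_mul_cancel, Units.val_one]
        calc (N : Matrix D.Idx D.Idx F) * ((u₁ : Matrix D.Idx D.Idx F) - 1) ^ k *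
              ((N⁻¹ : GL D.Idx F) : Matrix D.Idx D.Idx F) * ((N : Matrix D.Idx D.Idx F) *
              ((u₁ : Matrix D.Idx D.Idx F) - 1) * ((N⁻¹ : GL D.Idx F) : Matrix D.Idx D.Idx F))
            = (N : Matrix D.Idx D.Idx F) * ((u₁ : Matrix D.Idx D.Idx F) - 1) ^ k *
              (((N⁻¹ : GL D.Idx F) : Matrix D.Idx D.Idx F) * (N : Matrix D.Idx D.Idx F)) *
              ((u₁ : Matrix D.Idx D.Idx F) - 1) * ((N⁻¹ : GL D.Idx F) : Matrix D.Idx D.Idx F) := by
                simp only [Matrix.mul_assoc]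
          _ = _ := by rw [e7, Matrix.mul_one]; simp only [Matrix.mul_assoc]
    rw [e5, e6, hz1, Matrix.mul_zero, Matrix.zero_mul]
  -- diagonal entries
  have htri2 : Tri (lvl D) (u₂ : Matrix D.Idx D.Idx F) := tri_of_nilK (le_refl 1) hu2
  have htriA : Tri (lvl D) (((h' * u₂ : GL D.Idx F) : Matrix D.Idx D.Idx F) - 1) := by
    rw [Units.val_mul, eχ]
    exact ((tri_diagonal _ _).mul htri2).sub Tri.one
  have hdiag : ∀ k : D.Idx, χ (ix D k) = 1 := by
    intro k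
    have h5 := htriA.pow_diag K k
    rw [← e4, hz2] at h5
    have h6 : (((N * u₁ * N⁻¹ : GL D.Idx F) : Matrix D.Idx D.Idx F) - 1) k k = 0 := by
      have := h5.symm
      rw [Matrix.zero_apply] at this
      exact pow_eq_zero_iff (by omega) |>.mp this
    rw [e4, Units.val_mul, eχ, Matrix.sub_apply, Matrix.diagonal_mul, Matrix.one_apply_eq] at h6
    have h7 : (u₂ : Matrix D.Idx D.Idx F) k k = 1 := by
      by_contra hne
      have h8 : ((u₂ : Matrix D.Idx D.Idx F) - 1) k k ≠ 0 := by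
        rw [Matrix.sub_apply, Matrix.one_apply_eq]; exact sub_ne_zero.mpr hne
      have := hu2 k k h8
      omega
    rw [h7, mul_one] at h6
    exact sub_eq_zero.mp h6
  have hh'1 : h' = 1 := by
    apply Units.ext
    rw [eχ, Units.val_one, ← Matrix.diagonal_one]
    congr 1
    funext k
    exact hdiag k
  rw [hh'] at hh'1
  exact (inv_mul_eq_one.mp hh'1)

end Cfsg.Agent.H23
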