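import Cfsg.Agent.H23.IcDefs

set_option autoImplicit false

/-!
# S5751: the final assembly from the pieces of `IcDefs`
-/

namespace Cfsg.Agent.H23.Ic

open Cfsg.Lie

theorem Q_le_Up (k : ℕ) : Q k ≤ Up := by
  unfold Q
  rw [show (Up : Subgroup GLE) = rootGen chevE8 (ZMod 2) chevE8.IsPosRoot from rfl]
  exact rootGen_mono hS _ _ (fun r hr => hr.1)

theorem Q_anti (k : ℕ) : Q (k + 1) ≤ Q k := by
  unfold Q
  apply rootGen_mono hS
  intro r hr
  refine ⟨hr.1, ?_⟩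
  have := hr.2
  push_cast at this ⊢
  omega

/-- The statement of S5751 from the pieces. -/
theorem ic_main (hAbs : StAbs) (hBasic : StBasic) (hNotin : StNotin) (hCoat : StCoat) (hLowN : StLowN)
    (hLowC : StLowC) (hLowT : StLowT) (hS0 : StepFrom Pj (Rk 1))
    (hSK : ∀ k : ℕ, 1 ≤ k → StepFrom (Rk k) (Rk (k + 1))) (hEnd : Rk 6 = ⊥) :
    ∃ (G : Type) (_ : Group G) (_ : Finite G) (M₁ M₂ : Subgroup G) (g : G) (A B : ℕ → Subgroup G),
      IsCoatom M₁ ∧ M₂ = M₁.map (MulAut.conj g).toMonoidHom ∧ M₁ ≠ M₂ ∧ M₁.normalCore = ⊥ ∧ A 0 = M₁ ∧ B 0 = M₂ ∧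
      (∀ i, A (i + 1) = ((A i ⊓ B i).subgroupOf M₁).normalCore.map M₁.subtype) ∧
      (∀ i, B (i + 1) = ((A i ⊓ B i).subgroupOf M₂).normalCore.map M₂.subtype) ∧ A 6 = ⊥ ∧ A 5 ≠ ⊥ := by
  obtain ⟨hsq, -, hnG, hPG, hUP⟩ := hBasic
  have hn3 : nn 3 ∈ GE := hnG 3 (by norm_num)
  obtain ⟨hco, hne⟩ := hCoat hNotin hn3
  have key := @hAbs GLE _ GE Pj hPG (nn 3) hn3 (hsq 3 (by norm_num)) hco hne
    (fun i => if i = 0 then Pj else Rk i) (fun i => Q (i + 1)) (by simp)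
    (by
      intro i hi N hN hnorm hR hRc
      rcases Nat.eq_zero_or_pos i with h0 | hpos
      · subst h0
        simp only [if_true] at hR hRc
        simpa using hS0 N hN hnorm hR hRc
      · have hi0 : i ≠ 0 := by omega
        simp only [if_neg hi0] at hR hRc
        simpa using hSK i hpos N hN hnorm hR hRc)
    (by simpa using hEnd)
    ((Q_le_Up 1).trans hUP)
    (by
      intro i
      refine ⟨Q_anti (i + 1), hLowC (i + 1) (by omega), ?_⟩
      intro p hp x hx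
      have h1 := hLowN (i + 1 + 1) (by omega) hp
      exact (Subgroup.mem_normalizer_iff.mp h1 x).mp hx)
    hLowT
  obtain ⟨M₁, M₂, g, A, B, h⟩ := key
  exact ⟨↥GE, inferInstance, inferInstance, M₁, M₂, g, A, B, h⟩

end Cfsg.Agent.H23.Ic
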