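import Cfsg.Agent.H23.IcDefs
import Cfsg.Agent.H23.Cell

set_option autoImplicit false

/-!
# S5751, piece WD: a weight-diagonal element of `E8(2)` is trivial
-/

namespace Cfsg.Agent.H23.Ic

open Cfsg.Lie

/-- Over the field with two elements the diagonal subgroup is trivial. -/
theorem diag_bot : chevE8.diagonalSubgroup (ZMod 2) = ⊥ := by
  unfold ChevalleyDatum.diagonalSubgroup
  rw [Subgroup.closure_eq_bot_iff]
  rintro g ⟨r, t, hr, ht, hg⟩
  have h2 : ∀ t : ZMod 2, t ≠ 0 → t = 1 := by decide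
  have ht1 : t = 1 := h2 t ht
  subst ht1
  rw [hMat_one hS r hr] at hg
  exact Set.mem_singleton_iff.mpr (Units.ext hg)

theorem borel_eq : chevE8.borelSubgroup (ZMod 2) = Up := by
  unfold ChevalleyDatum.borelSubgroup
  rw [diag_bot, sup_bot_eq]

/-- Nonzero entries do not lower `lvl`. -/
def FilL (M : Matrix chevE8.Idx chevE8.Idx (ZMod 2)) : Prop :=
  ∀ a c, M a c ≠ 0 → lvl chevE8 c ≤ lvl chevE8 a

theorem FilL.mul {M M' : Matrix chevE8.Idx chevE8.Idx (ZMod 2)} (h : FilL M) (h' : FilL M') :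
    FilL (M * M') := by
  intro i j hij
  obtain ⟨l, h1, h2⟩ := exists_of_mul_ne_zero hij
  exact le_trans (h' l j h2) (h i l h1)

theorem filL_of_uni (u : GLE) (hu : u ∈ uniGroup (F := ZMod 2) (lvl chevE8) 1) :
    FilL (u : Matrix chevE8.Idx chevE8.Idx (ZMod 2)) := by
  intro a c hac
  by_cases h : a = c
  · rw [h]
  · have h1 : ((u : Matrix chevE8.Idx chevE8.Idx (ZMod 2)) - 1) a c ≠ 0 := by
      rw [Matrix.sub_apply, Matrix.one_apply_ne h, sub_zero]; exact hac
    have := hu.1 a c h1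
    omega

theorem filL_of_wd {M : Matrix chevE8.Idx chevE8.Idx (ZMod 2)} (h : WDiag M) : FilL M := by
  intro a c hac
  rcases h a c hac with e | ⟨i, j, e1, e2⟩
  · rw [e]
  · rw [e1, e2, lvl_inl, lvl_inl]

theorem isGenMono_of_wd {M : Matrix chevE8.Idx chevE8.Idx (ZMod 2)} (h : WDiag M) : IsGenMono chevE8 M := by
  refine ⟨fun s => ⟨s, fun row hrow => ?_⟩, fun i u => ?_⟩
  · rcases h row (Sum.inr s) hrow with e | ⟨i, j, -, e2⟩
    · exact e
    · exact absurd e2 (by simp)
  · by_contra hne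
    rcases h (Sum.inr u) (Sum.inl i) hne with e | ⟨i', j, e1, -⟩
    · exact absurd e (by simp)
    · exact absurd e1 (by simp)

/-- A conjugate of a unitriangular element by a `lvl`-filtered element is triangular. -/
theorem tri_conj (n x : GLE) (hF : FilL (n : Matrix chevE8.Idx chevE8.Idx (ZMod 2)))
    (hF' : FilL ((n⁻¹ : GLE) : Matrix chevE8.Idx chevE8.Idx (ZMod 2)))
    (hx : NilK (lvl chevE8) 1 ((x : Matrix chevE8.Idx chevE8.Idx (ZMod 2)) - 1)) :
    Tri (lvl chevE8) ((n * x * n⁻¹ : GLE) : Matrix chevE8.Idx chevE8.Idx (ZMod 2)) := by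
  intro i j hij
  by_cases h : i = j
  · exact Or.inl h
  · right
    have e : ((n * x * n⁻¹ : GLE) : Matrix chevE8.Idx chevE8.Idx (ZMod 2)) =
        (n : Matrix chevE8.Idx chevE8.Idx (ZMod 2)) * ((x : Matrix chevE8.Idx chevE8.Idx (ZMod 2)) - 1) *
          ((n⁻¹ : GLE) : Matrix chevE8.Idx chevE8.Idx (ZMod 2)) + 1 := by
      have h1 : (n : Matrix chevE8.Idx chevE8.Idx (ZMod 2)) *
          ((n⁻¹ : GLE) : Matrix chevE8.Idx chevE8.Idx (ZMod 2)) = 1 := by
        rw [← Units.val_mul, mul_inv_cancel, Units.val_one]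
      rw [Units.val_mul, Units.val_mul, Matrix.mul_sub, Matrix.sub_mul, Matrix.mul_one, h1]
      abel
    rw [e, Matrix.add_apply, Matrix.one_apply_ne h, add_zero] at hij
    obtain ⟨a, h1, h2⟩ := exists_of_mul_ne_zero hij
    obtain ⟨b, h3, h4⟩ := exists_of_mul_ne_zero h1
    have e1 := hF' a j h2
    have e2 := hx b a h4
    have e3 := hF i b h3
    omega

theorem wd : StWD := by
  intro l hl hw hw'
  obtain ⟨n, hn, b, hb, b', hb', e⟩ := bruhat_GL hPk l hl
  rw [borel_eq] at hb hb'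
  have hbU := posUnipotent_le_uni hS hb
  have hbU' := posUnipotent_le_uni hS hb'
  have en : n = b⁻¹ * l * b'⁻¹ := by rw [e]; group
  have en' : n⁻¹ = b' * l⁻¹ * b := by rw [en]; group
  have hFn : FilL (n : Matrix chevE8.Idx chevE8.Idx (ZMod 2)) := by
    rw [en, Units.val_mul, Units.val_mul]
    exact ((filL_of_uni _ (Subgroup.inv_mem _ hbU)).mul (filL_of_wd hw)).mul
      (filL_of_uni _ (Subgroup.inv_mem _ hbU'))
  have hFn' : FilL ((n⁻¹ : GLE) : Matrix chevE8.Idx chevE8.Idx (ZMod 2)) := by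
    rw [en', Units.val_mul, Units.val_mul]
    exact ((filL_of_uni _ hbU').mul (filL_of_wd hw')).mul (filL_of_uni _ hbU)
  have hperm := monomial_le_perm hS hPk.semN hPk.tab hPk.etaNeg hn
  have key : ∀ r, chevE8.IsPosRoot r → ∀ t : ZMod 2, n * xU hS r t * n⁻¹ ∈ Up := by
    intro r hr t
    obtain ⟨q, hq, c, c', hc⟩ := hperm.1 r hr.1
    rcases (tab_E8.pos_neg q hq).2.2.1 with hpos | hneg
    · rw [(hc t).1]
      exact xU_mem_rootGen hS chevE8.IsPosRoot q hpos _
    · have htri : xU hS q (c * t) ∈ triGroup (F := ZMod 2) (lvl chevE8) := by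
        refine ⟨?_, ?_⟩
        · rw [← (hc t).1]
          exact tri_conj n _ hFn hFn' (by rw [xU_val]; exact x_nilK hS r hr t)
        · have e2 : (xU hS q (c * t))⁻¹ = n * xU hS r (-t) * n⁻¹ := by
            rw [← (hc t).1, ← xU_inv]; group
          rw [e2]
          exact tri_conj n _ hFn hFn' (by rw [xU_val]; exact x_nilK hS r hr (-t))
      have h0 := eq_zero_of_xU_neg_mem_tri hS tab_E8 tab2_E8 q hneg _ htri
      rw [(hc t).1, h0, xU_zero]
      exact Subgroup.one_mem _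
  have hnB : n ∈ chevE8.borelSubgroup (ZMod 2) := by
    apply mem_borel_of_conj hPk n (monomial_le_group hS hn)
    intro β hβ
    rw [borel_eq] at hβ ⊢
    have hle : Up ≤ Up.comap (MulAut.conj n).toMonoidHom := by
      show chevE8.posUnipotent (ZMod 2) ≤ _
      unfold ChevalleyDatum.posUnipotent
      rw [Subgroup.closure_le]
      rintro g ⟨r, t, hr, hg⟩
      rw [eq_xU hS g r t hg]
      show (MulAut.conj n) (xU hS r t) ∈ Up
      rw [MulAut.conj_apply]
      exact key r hr t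
    have := hle hβ
    rw [Subgroup.mem_comap] at this
    simpa [MulAut.conj_apply] using this
  rw [borel_eq] at hnB
  have hlU : l ∈ Up := by
    rw [e]; exact Subgroup.mul_mem _ (Subgroup.mul_mem _ hb hnB) hb'
  have h1 : l ∈ uniGroup (F := ZMod 2) (lvl chevE8) 1 ⊓ monoGroup chevE8 (ZMod 2) :=
    ⟨posUnipotent_le_uni hS hlU, isGenMono_of_wd hw, isGenMono_of_wd hw'⟩
  rw [uni_inf_mono, Subgroup.mem_bot] at h1
  exact h1

end Cfsg.Agent.H23.Ic
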