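import Cfsg.Agent.H23.OrdG2
import Cfsg.Agent.H23.OrdB2
import Cfsg.Agent.H23.OrdD4
import Cfsg.Agent.H23.OrdF4
import Cfsg.Agent.H23.OrdE6
import Cfsg.Agent.H23.OrdE7
import Cfsg.Agent.H23.OrdE8

set_option autoImplicit false

/-!
# The order of the diagonal subgroup `H` of the seven tabulated Chevalley groups
-/

namespace Cfsg.Agent.H23

open Cfsg.Lie

/-- `|H|` from a Smith normal form of the Cartan matrix. -/
theorem card_diagonal_formula {D : ChevalleyDatum} {F : Type*} [Field F] {η : ℕ → ℕ → ℤ} {ctbl : List ℕ}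
    [Finite F] (hP : PackB D F (zR D ctbl) η) (hH : TabH D ctbl) {P Q Pi Qi : List (List ℤ)} {d : List ℕ}
    (hS : SmithOK D ctbl P Q Pi Qi d) :
    Nat.card ↥(D.diagonalSubgroup F) = (d.map (fun k => (Nat.card F - 1) / (Nat.card F - 1).gcd k)).prod := by
  rw [card_diagonal hP hH, card_range_powHom _ _ _ _ _ _ hS.hA hS.hP hS.hQ, Nat.card_units]
  exact prod_fin_getD d hS.len (fun k => (Nat.card F - 1) / (Nat.card F - 1).gcd k)

theorem gcd_mul_div (a x : ℕ) : Nat.gcd a x * (x / x.gcd a) = x := by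
  rw [Nat.gcd_comm]; exact Nat.mul_div_cancel' (Nat.gcd_dvd_left _ _)

section

variable {F : Type*} [Field F] [Fintype F] {q : ℕ} (hq : Fintype.card F = q)
include hq

theorem cardH_G2 : 1 * Nat.card ↥(chevG2.diagonalSubgroup F) = (q - 1) ^ chevG2.rank := by
  have hP : PackB chevG2 F (zR chevG2 ctblG2) _ := ⟨chk_G2.sem F, nconj_G2.semN chk_G2.tblOK F,
    comm_G2.semC chk_G2.tblOK F, tab_G2, tabC_G2, etaNeg_G2, tab2_G2⟩
  have h := card_diagonal_formula hP tabH_G2 smith_G2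
  rw [Nat.card_eq_fintype_card (α := F), hq] at h
  have hr : chevG2.rank = 2 := rfl
  rw [h, hr]
  simp only [List.map_cons, List.map_nil, List.prod_cons, List.prod_nil, Nat.gcd_one_right, Nat.div_one]
  ring

theorem cardH_F4 : 1 * Nat.card ↥(chevF4.diagonalSubgroup F) = (q - 1) ^ chevF4.rank := by
  have hP : PackB chevF4 F (zR chevF4 ctblF4) _ := ⟨chk_F4.sem F, nconj_F4.semN chk_F4.tblOK F,
    comm_F4.semC chk_F4.tblOK F, tab_F4, tabC_F4, etaNeg_F4, tab2_F4⟩
  have h := card_diagonal_formula hP tabH_F4 smith_F4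
  rw [Nat.card_eq_fintype_card (α := F), hq] at h
  have hr : chevF4.rank = 4 := rfl
  rw [h, hr]
  simp only [List.map_cons, List.map_nil, List.prod_cons, List.prod_nil, Nat.gcd_one_right, Nat.div_one]
  ring

theorem cardH_E8 : 1 * Nat.card ↥(chevE8.diagonalSubgroup F) = (q - 1) ^ chevE8.rank := by
  have hP : PackB chevE8 F (zR chevE8 ctblE8) _ := ⟨chk_E8.sem F, nconj_E8.semN chk_E8.tblOK F,
    comm_E8.semC chk_E8.tblOK F, tab_E8, tabC_E8, etaNeg_E8, tab2_E8⟩
  have h := card_diagonal_formula hP tabH_E8 smith_E8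
  rw [Nat.card_eq_fintype_card (α := F), hq] at h
  have hr : chevE8.rank = 8 := rfl
  rw [h, hr]
  simp only [List.map_cons, List.map_nil, List.prod_cons, List.prod_nil, Nat.gcd_one_right, Nat.div_one]
  ring

theorem cardH_E6 : Nat.gcd 3 (q - 1) * Nat.card ↥(chevE6.diagonalSubgroup F) = (q - 1) ^ chevE6.rank := by
  have hP : PackB chevE6 F (zR chevE6 ctblE6) _ := ⟨chk_E6.sem F, nconj_E6.semN chk_E6.tblOK F,
    comm_E6.semC chk_E6.tblOK F, tab_E6, tabC_E6, etaNeg_E6, tab2_E6⟩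
  have h := card_diagonal_formula hP tabH_E6 smith_E6
  rw [Nat.card_eq_fintype_card (α := F), hq] at h
  have hr : chevE6.rank = 6 := rfl
  rw [h, hr]
  simp only [List.map_cons, List.map_nil, List.prod_cons, List.prod_nil, Nat.gcd_one_right, Nat.div_one]
  refine Eq.trans (b := (q - 1) ^ 5 * (Nat.gcd 3 (q - 1) * ((q - 1) / (q - 1).gcd 3))) (by ring) ?_
  rw [gcd_mul_div]
  ring

theorem cardH_E7 : Nat.gcd 2 (q - 1) * Nat.card ↥(chevE7.diagonalSubgroup F) = (q - 1) ^ chevE7.rank := by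
  have hP : PackB chevE7 F (zR chevE7 ctblE7) _ := ⟨chk_E7.sem F, nconj_E7.semN chk_E7.tblOK F,
    comm_E7.semC chk_E7.tblOK F, tab_E7, tabC_E7, etaNeg_E7, tab2_E7⟩
  have h := card_diagonal_formula hP tabH_E7 smith_E7
  rw [Nat.card_eq_fintype_card (α := F), hq] at h
  have hr : chevE7.rank = 7 := rfl
  rw [h, hr]
  simp only [List.map_cons, List.map_nil, List.prod_cons, List.prod_nil, Nat.gcd_one_right, Nat.div_one]
  refine Eq.trans (b := (q - 1) ^ 6 * (Nat.gcd 2 (q - 1) * ((q - 1) / (q - 1).gcd 2))) (by ring) ?_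
  rw [gcd_mul_div]
  ring

theorem cardH_B2 : Nat.gcd 2 (q - 1) * Nat.card ↥(chevB2.diagonalSubgroup F) = (q - 1) ^ chevB2.rank := by
  have hP : PackB chevB2 F (zR chevB2 ctblB2) _ := ⟨chk_B2.sem F, nconj_B2.semN chk_B2.tblOK F,
    comm_B2.semC chk_B2.tblOK F, tab_B2, tabC_B2, etaNeg_B2, tab2_B2⟩
  have h := card_diagonal_formula hP tabH_B2 smith_B2
  rw [Nat.card_eq_fintype_card (α := F), hq] at h
  have hr : chevB2.rank = 2 := rfl
  rw [h, hr]
  simp only [List.map_cons, List.map_nil, List.prod_cons, List.prod_nil, Nat.gcd_one_right, Nat.div_one]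
  refine Eq.trans (b := (q - 1) ^ 1 * (Nat.gcd 2 (q - 1) * ((q - 1) / (q - 1).gcd 2))) (by ring) ?_
  rw [gcd_mul_div]
  ring

theorem cardH_D4 : Nat.gcd 2 (q - 1) ^ 2 * Nat.card ↥(chevD4.diagonalSubgroup F) = (q - 1) ^ chevD4.rank := by
  have hP : PackB chevD4 F (zR chevD4 ctblD4) _ := ⟨chk_D4.sem F, nconj_D4.semN chk_D4.tblOK F,
    comm_D4.semC chk_D4.tblOK F, tab_D4, tabC_D4, etaNeg_D4, tab2_D4⟩
  have h := card_diagonal_formula hP tabH_D4 smith_D4
  rw [Nat.card_eq_fintype_card (α := F), hq] at h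
  have hr : chevD4.rank = 4 := rfl
  rw [h, hr]
  simp only [List.map_cons, List.map_nil, List.prod_cons, List.prod_nil, Nat.gcd_one_right, Nat.div_one]
  refine Eq.trans (b := (q - 1) ^ 2 * ((Nat.gcd 2 (q - 1) * ((q - 1) / (q - 1).gcd 2)) *
    (Nat.gcd 2 (q - 1) * ((q - 1) / (q - 1).gcd 2)))) (by ring) ?_
  rw [gcd_mul_div]
  ring

end

end Cfsg.Agent.H23
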