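import Cfsg.Agent.H23.Tw10

set_option autoImplicit false

/-!
# Twisted groups: the order formula in terms of cells
-/

namespace Cfsg.Agent.H23

open Cfsg.Lie

variable {D : ChevalleyDatum} {F : Type*} [Field F] {z η : ℕ → ℕ → ℤ}

/-- A system of representatives of the block words up to equality of the Weyl group elements. -/
structure TwReps (D : ChevalleyDatum) (blocks : List (List ℕ)) (reps : List (List ℕ)) : Prop where
  bw : ∀ w ∈ reps, BW blocks w
  nil : ∃ w ∈ reps, ∀ s < D.nroots, reflW D [] s = reflW D w s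
  step : ∀ w ∈ reps, ∀ L ∈ blocks, ∃ w' ∈ reps, ∀ s < D.nroots, reflW D (w ++ L) s = reflW D w' s
  inj : ∀ w ∈ reps, ∀ w' ∈ reps, (∀ s < D.nroots, reflW D w s = reflW D w' s) → w = w'
  nodup : reps.Nodup

/-- Words with the same Weyl group element give the same element of `N` up to `H`. -/
theorem nWU_rel_of_refl_eq (hP : PackB D F z η) (w w' : List ℕ) (hw : ∀ i ∈ w, i < D.rank)
    (hw' : ∀ i ∈ w', i < D.rank) (h : ∀ s < D.nroots, reflW D w s = reflW D w' s) :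
    nWU hP.sem w * (nWU hP.sem w')⁻¹ ∈ D.diagonalSubgroup F := by
  have hS := hP.sem
  have hT := hP.tab
  have hN' := nWU_mem hS hT w' hw'
  have hmN : (nWU hS w')⁻¹ * nWU hS w ∈ D.monomialSubgroup F :=
    Subgroup.mul_mem _ (Subgroup.inv_mem _ hN') (nWU_mem hS hT w hw)
  have hmB : (nWU hS w')⁻¹ * nWU hS w ∈ D.borelSubgroup F := by
    apply mem_borel_of_conj hP _ (monomial_le_group hS hmN)
    apply conj_borel_of_fix hP _ hmN
    intro s hs
    obtain ⟨c, _, hc⟩ := conj_word_pair hP w w' hw hw' h s hs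
    exact ⟨c, hc⟩
  have hmH : (nWU hS w')⁻¹ * nWU hS w ∈ D.diagonalSubgroup F := by
    rw [← borel_inf_monomial hS]; exact ⟨hmB, hmN⟩
  have := (Subgroup.mem_normalizer_iff.mp (monomial_le_normalizer_diag hS hP.semN hT hP.etaNeg hN') _).mp hmH
  have e : nWU hS w' * ((nWU hS w')⁻¹ * nWU hS w) * (nWU hS w')⁻¹ = nWU hS w * (nWU hS w')⁻¹ := by group
  rwa [e] at this

section Main

variable (hP : PackB D F z η) (hV : SemV D F) {rT : List ℕ} (hTT : TabT D rT) (hTL : TabL D rT)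
  {T : TwSys hP.sem} (B : TwBlocks T) {K : Subgroup (GL D.Idx F)} (hK : TwGroup hP T B K)
  (w₀ : List ℕ) (hW : TabW D w₀) (hbw : BW B.blocks w₀)

/-- Every block word has a representative. -/
theorem bw_rep {reps : List (List ℕ)} (R : TwReps D B.blocks reps) (w : List ℕ) (hw : BW B.blocks w) :
    ∃ w' ∈ reps, ∀ s < D.nroots, reflW D w s = reflW D w' s := by
  have hT := hP.tab
  obtain ⟨bs, hbs, rfl⟩ := hw
  induction bs using List.reverseRecOn with
  | nil => exact R.nil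
  | append_singleton bs L ih =>
    have hL : L ∈ B.blocks := hbs L (by simp)
    obtain ⟨w₁, hw₁, h₁⟩ := ih (fun L' hL' => hbs L' (List.mem_append_left _ hL'))
    obtain ⟨w', hw', h'⟩ := R.step w₁ hw₁ L hL
    refine ⟨w', hw', fun s hs => ?_⟩
    have e : (bs ++ [L]).flatten = bs.flatten ++ L := by simp
    rw [e, reflW_append, h₁ _ (reflW_lt hT L (B.blk L hL).ok.lt s hs), ← reflW_append]
    exact h' s hs

include hV hTT hTL hK hW hbw

/-- The canonical form of an element of the twisted group, with a representative word. -/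
theorem tw_decomp_rep {reps : List (List ℕ)} (R : TwReps D B.blocks reps) (g : GL D.Idx F) (hg : g ∈ K) :
    ∃ u₁ ∈ D.posUnipotent F, u₁ ∈ K ∧ ∃ h ∈ D.diagonalSubgroup F, h ∈ K ∧ ∃ w ∈ reps,
      ∃ u ∈ UmG D F (nWU hP.sem w), T.σ u = u ∧ g = u₁ * h * nWU hP.sem w * u := by
  have hS := hP.sem
  obtain ⟨u₁, hu₁, hu₁K, h, hh, hhK, w, hw, u, hu, huf, huK, e⟩ :=
    tw_decomp hP hV hTT hTL B hK w₀ hW hbw g hg
  obtain ⟨w', hw', hr⟩ := bw_rep hP B R w hw
  have hbw' := R.bw w' hw'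
  have hm := nWU_rel_of_refl_eq hP w w' (hw.lt B) (hbw'.lt B) hr
  have hmK : nWU hS w * (nWU hS w')⁻¹ ∈ K :=
    K.mul_mem (nWU_bw_mem hP B K hK.nmem w hw) (K.inv_mem (nWU_bw_mem hP B K hK.nmem w' hbw'))
  have e2 : nWU hS w = (nWU hS w * (nWU hS w')⁻¹) * nWU hS w' := by group
  refine ⟨u₁, hu₁, hu₁K, h * (nWU hS w * (nWU hS w')⁻¹), Subgroup.mul_mem _ hh hm, K.mul_mem hhK hmK,
    w', hw', u, ?_, huf, ?_⟩
  · rw [e2, UmG_diag_mul hS _ _ hm] at hu; exact hu
  · rw [e]; group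

/-- The order of a twisted group in terms of the cells. -/
theorem tw_card_cells [Finite F] {reps : List (List ℕ)} (R : TwReps D B.blocks reps) (q : ℕ)
    (hq : ∀ L ∈ B.blocks, Nat.card (B.S L) = q ^ L.length) :
    Nat.card ↥K = q ^ numPos D * Nat.card ↥(D.diagonalSubgroup F ⊓ K) *
      (reps.map (fun w => q ^ invN D w.reverse)).sum := by
  classical
  have hS := hP.sem
  have hT := hP.tab
  have hUB : D.posUnipotent F ≤ D.borelSubgroup F := le_sup_left
  have hHB : D.diagonalSubgroup F ≤ D.borelSubgroup F := le_sup_right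
  have hrepK : ∀ i : Fin reps.length, nWU hS reps[i.1] ∈ K := fun i =>
    nWU_bw_mem hP B K hK.nmem _ (R.bw _ (List.getElem_mem i.2))
  have hrepN : ∀ i : Fin reps.length, nWU hS reps[i.1] ∈ D.monomialSubgroup F := fun i =>
    nWU_mem hS hT _ ((R.bw _ (List.getElem_mem i.2)).lt B)
  let β : Fin reps.length → Type _ := fun i =>
    (↥(D.posUnipotent F ⊓ K) × ↥(D.diagonalSubgroup F ⊓ K)) ×
      {u : GL D.Idx F // u ∈ UmG D F (nWU hS reps[i.1]) ∧ T.σ u = u}
  have huK : ∀ (i : Fin reps.length) (u : {u : GL D.Idx F // u ∈ UmG D F (nWU hS reps[i.1]) ∧ T.σ u = u}),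
      (u : GL D.Idx F) ∈ K := fun i u =>
    pos_fix_mem hP hV hTT hTL B hK w₀ hW hbw u (UmG_le_pos _ u.2.1) u.2.2
  let Φ : Sigma β → ↥K := fun x =>
    ⟨(x.2.1.1 : GL D.Idx F) * (x.2.1.2 : GL D.Idx F) * nWU hS reps[x.1.1] * (x.2.2 : GL D.Idx F),
      K.mul_mem (K.mul_mem (K.mul_mem x.2.1.1.2.2 x.2.1.2.2.2) (hrepK x.1)) (huK x.1 x.2.2)⟩
  have hinj : Function.Injective Φ := by
    rintro ⟨i, ⟨u₁, h⟩, u⟩ ⟨i', ⟨u₁', h'⟩, u'⟩ e
    have e1 : (u₁ : GL D.Idx F) * (h : GL D.Idx F) * nWU hS reps[i.1] * (u : GL D.Idx F) =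
        (u₁' : GL D.Idx F) * (h' : GL D.Idx F) * nWU hS reps[i'.1] * (u' : GL D.Idx F) :=
      congrArg Subtype.val e
    have hb : (u₁ : GL D.Idx F) * (h : GL D.Idx F) ∈ D.borelSubgroup F :=
      Subgroup.mul_mem _ (hUB u₁.2.1) (hHB h.2.1)
    have hb' : (u₁' : GL D.Idx F) * (h' : GL D.Idx F) ∈ D.borelSubgroup F :=
      Subgroup.mul_mem _ (hUB u₁'.2.1) (hHB h'.2.1)
    obtain ⟨h0, h1⟩ := canon_unique hP hV _ _ _ _ _ _ hb hb' (hrepN i) (hrepN i') u.2.1 u'.2.1 e1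
    have hwi : reps[i.1] = reps[i'.1] := by
      apply R.inj _ (List.getElem_mem i.2) _ (List.getElem_mem i'.2)
      apply refl_eq_of_dcB_word_eq hP _ _ ((R.bw _ (List.getElem_mem i.2)).lt B)
        ((R.bw _ (List.getElem_mem i'.2)).lt B)
      have e3 : nWU hS reps[i.1] * ((nWU hS reps[i.1])⁻¹ * nWU hS reps[i'.1]) = nWU hS reps[i'.1] := by group
      have := dcB_mul_right (D := D) (F := F) (hHB h0) (nWU hS reps[i.1])
      rw [e3] at this
      exact this.symm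
    have hii : i = i' := Fin.ext ((R.nodup.getElem_inj_iff).mp hwi)
    subst hii
    obtain ⟨h2, h3⟩ := h1 rfl
    have h4 : (u₁' : GL D.Idx F)⁻¹ * (u₁ : GL D.Idx F) ∈ D.posUnipotent F ⊓ D.monomialSubgroup F := by
      refine ⟨Subgroup.mul_mem _ (Subgroup.inv_mem _ u₁'.2.1) u₁.2.1, ?_⟩
      have e4 : (u₁' : GL D.Idx F)⁻¹ * (u₁ : GL D.Idx F) = (h' : GL D.Idx F) * (h : GL D.Idx F)⁻¹ := by
        have : (u₁ : GL D.Idx F) = (u₁' : GL D.Idx F) * (h' : GL D.Idx F) * (h : GL D.Idx F)⁻¹ := by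
          rw [← h2]; group
        rw [this]; group
      rw [e4]
      exact diagonal_le_monomial (Subgroup.mul_mem _ h'.2.1 (Subgroup.inv_mem _ h.2.1))
    rw [posUnipotent_inf_monomial hS, Subgroup.mem_bot] at h4
    have hu₁ : (u₁ : GL D.Idx F) = (u₁' : GL D.Idx F) := by
      have : (u₁ : GL D.Idx F) = (u₁' : GL D.Idx F) * ((u₁' : GL D.Idx F)⁻¹ * (u₁ : GL D.Idx F)) := by group
      rw [this, h4, mul_one]
    have hh : (h : GL D.Idx F) = (h' : GL D.Idx F) := by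
      rw [hu₁] at h2
      exact mul_left_cancel h2
    have e5 : u₁ = u₁' := Subtype.ext hu₁
    have e6 : h = h' := Subtype.ext hh
    have e7 : u = u' := Subtype.ext h3
    rw [e5, e6, e7]
  have hsurj : Function.Surjective Φ := by
    rintro ⟨g, hg⟩
    obtain ⟨u₁, hu₁, hu₁K, h, hh, hhK, w, hw, u, hu, huf, e⟩ :=
      tw_decomp_rep hP hV hTT hTL B hK w₀ hW hbw R g hg
    obtain ⟨i, hi, rfl⟩ := List.getElem_of_mem hw
    refine ⟨⟨⟨i, hi⟩, (⟨u₁, hu₁, hu₁K⟩, ⟨h, hh, hhK⟩), ⟨u, hu, huf⟩⟩, ?_⟩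
    exact Subtype.ext e.symm
  have hfinG : Finite (GL D.Idx F) := inferInstance
  have hβ : ∀ i, Finite (β i) := fun i => by
    show Finite ((↥(D.posUnipotent F ⊓ K) × ↥(D.diagonalSubgroup F ⊓ K)) ×
      {u : GL D.Idx F // u ∈ UmG D F (nWU hS reps[i.1]) ∧ T.σ u = u})
    infer_instance
  rw [← Nat.card_congr (Equiv.ofBijective Φ ⟨hinj, hsurj⟩), Nat.card_sigma,
    ← Fin.sum_univ_fun_getElem reps (fun w => q ^ invN D w.reverse), Finset.mul_sum]
  apply Finset.sum_congr rfl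
  intro i _
  show Nat.card ((↥(D.posUnipotent F ⊓ K) × ↥(D.diagonalSubgroup F ⊓ K)) ×
      {u : GL D.Idx F // u ∈ UmG D F (nWU hS reps[i.1]) ∧ T.σ u = u}) = _
  rw [Nat.card_prod, Nat.card_prod, card_pos_inf hP hV hTT hTL B hK w₀ hW hbw q hq,
    fix_card hP hV hTT hTL B q hq (invN D (reps[i.1]).reverse + 1) reps[i.1]
      (R.bw _ (List.getElem_mem i.2)) (Nat.lt_succ_self _)]

end Main

end Cfsg.Agent.H23
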