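import Cfsg.Agent.H23.Tw12
import Cfsg.Agent.H23.TwD4e

set_option autoImplicit false
set_option maxRecDepth 100000

/-!
# The order of `³D₄(q)`
-/

namespace Cfsg.Agent.H23

open Cfsg.Lie

/-- `|H¹| = (q - 1)(q³ - 1)` for `³D₄(q)`. -/
theorem twD4_cardH {F : Type*} [Field F] [Fintype F] {q : ℕ} (hq : IsPrimePow q) (hF : Fintype.card F = q ^ 3) :
    Nat.card ↥(chevD4.diagonalSubgroup F ⊓ twistedD4 F q) = (q - 1) * (q ^ 3 - 1) := by
  classical
  obtain ⟨T, B, hG, hblk, hcard, hφT, hsig, -, -⟩ := tw_D4 hq hF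
  have hS := (packB_D4 F).sem
  have hT := (packB_D4 F).tab
  have hq1 : 1 < q := hq.one_lt
  have hm1 : (-1 : F) ^ q = -1 := by rw [← hφT]; simp
  let X := {b : F // b ^ q = b ∧ b ≠ 0} × {a : F // a ≠ 0}
  have hX : Nat.card X = (q - 1) * (q ^ 3 - 1) := by
    show Nat.card ({b : F // b ^ q = b ∧ b ≠ 0} × {a : F // a ≠ 0}) = _
    rw [Nat.card_prod]
    congr 1
    · have hA : Nat.card {s : F | T.φ s = s} = q := frob_card_fixed F q 3 Nat.prime_three hq1 hF T.φ hφT
      show Nat.card ↥({b : F | b ^ q = b ∧ b ≠ 0}) = q - 1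
      have e : {b : F | b ^ q = b ∧ b ≠ 0} = {s : F | T.φ s = s} \ {0} := by
        ext b
        simp [hφT]
      rw [Nat.card_coe_set_eq, e, Set.ncard_sdiff_singleton_of_mem (by simp), ← Nat.card_coe_set_eq, hA]
    · rw [← Nat.card_congr (unitsEquivNeZero (G₀ := F)), Nat.card_eq_fintype_card, Fintype.card_units, hF]
  have hdg : ∀ h ∈ chevD4.diagonalSubgroup F ⊓ twistedD4 F q,
      dgR chevD4 14 h ^ q = dgR chevD4 14 h ∧ dgR chevD4 13 h = dgR chevD4 18 h ^ q ∧
        dgR chevD4 12 h = dgR chevD4 13 h ^ q := by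
    intro h hh
    have hfix := hG.fix h hh.2
    have e1 := dgR_equiv (packB_D4 F) T h hh.1 hfix 1 (by decide)
    have e0 := dgR_equiv (packB_D4 F) T h hh.1 hfix 0 (by decide)
    have e2 := dgR_equiv (packB_D4 F) T h hh.1 hfix 2 (by decide)
    rw [hsig, hφT] at e0 e1 e2
    rw [twD4_simples.2.2.2.2.2.1, twD4_simples.2.1] at e1
    rw [twD4_simples.2.2.2.2.1, twD4_simples.2.2.1, twD4_simples.1] at e0
    rw [twD4_simples.2.2.2.2.2.2.1, twD4_simples.2.2.2.1, twD4_simples.2.2.1] at e2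
    exact ⟨e1.symm, e0, e2⟩
  let ι : ↥(chevD4.diagonalSubgroup F ⊓ twistedD4 F q) → X := fun h =>
    (⟨dgR chevD4 14 (h : GL chevD4.Idx F), (hdg h h.2).1, dgR_ne_zero hS hT h h.2.1 14⟩,
      ⟨dgR chevD4 18 (h : GL chevD4.Idx F), dgR_ne_zero hS hT h h.2.1 18⟩)
  have hι : Function.Injective ι := by
    intro h h' e
    have e14 : dgR chevD4 14 (h : GL chevD4.Idx F) = dgR chevD4 14 (h' : GL chevD4.Idx F) :=
      congrArg (fun x : X => (x.1 : F)) e
    have e18 : dgR chevD4 18 (h : GL chevD4.Idx F) = dgR chevD4 18 (h' : GL chevD4.Idx F) :=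
      congrArg (fun x : X => (x.2 : F)) e
    apply Subtype.ext
    apply diag_eq_of_dgR (packB_D4 F) _ _ h.2.1 h'.2.1
    intro i hi
    have hi4 : i < 4 := hi
    have hcases : i = 0 ∨ i = 1 ∨ i = 2 ∨ i = 3 := by omega
    rcases hcases with rfl | rfl | rfl | rfl
    · rw [twD4_simples.1]; exact e18
    · rw [twD4_simples.2.1]; exact e14
    · rw [twD4_simples.2.2.1, (hdg h h.2).2.1, (hdg h' h'.2).2.1, e18]
    · rw [twD4_simples.2.2.2.1, (hdg h h.2).2.2, (hdg h' h'.2).2.2, (hdg h h.2).2.1, (hdg h' h'.2).2.1, e18]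
  let Ψ : X → ↥(chevD4.diagonalSubgroup F ⊓ twistedD4 F q) := fun x =>
    ⟨hD4 F q x.1.1 x.2.1, hD4_mem_diag q _ _ x.1.2.2 x.2.2, hD4_mem q hm1 _ _ x.1.2.1⟩
  have hΨ : Function.Injective Ψ := by
    rintro ⟨⟨b, hb, hb0⟩, ⟨a, ha0⟩⟩ ⟨⟨b', hb', hb0'⟩, ⟨a', ha0'⟩⟩ e
    have e' : hD4 F q b a = hD4 F q b' a' := congrArg Subtype.val e
    have d18 := congrArg (dgR chevD4 18) e'
    have d14 := congrArg (dgR chevD4 14) e'
    rw [(hD4_dg q b a hb0 ha0).1, (hD4_dg q b' a' hb0' ha0').1] at d18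
    rw [(hD4_dg q b a hb0 ha0).2, (hD4_dg q b' a' hb0' ha0').2] at d14
    have hc0 : a / a' ≠ 0 := div_ne_zero ha0 ha0'
    have hc2 : (a / a') ^ 2 = b / b' := by
      rw [div_pow]
      field_simp
      field_simp at d18
      linear_combination d18
    have hdq : (b / b') ^ q = b / b' := by rw [div_pow, hb, hb']
    have hN : (b / b') ^ 2 = (a / a') * (a / a') ^ q * (a / a') ^ (q ^ 2) := by
      have h1 : a ^ q ≠ 0 := pow_ne_zero _ ha0
      have h2 : a ^ (q ^ 2) ≠ 0 := pow_ne_zero _ ha0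
      have h1' : a' ^ q ≠ 0 := pow_ne_zero _ ha0'
      have h2' : a' ^ (q ^ 2) ≠ 0 := pow_ne_zero _ ha0'
      rw [div_pow, div_pow, div_pow]
      field_simp
      field_simp at d14
      linear_combination d14
    set c := a / a' with hc
    set d := b / b' with hd
    have hcq : (c ^ 2) ^ q = c ^ 2 := by rw [hc2, hdq]
    have e1 : (c ^ q) ^ 2 = c ^ 2 := by rw [← pow_mul, mul_comm, pow_mul, hcq]
    have e2 : (c ^ (q ^ 2)) ^ 2 = c ^ 2 := by
      rw [sq q, pow_mul, ← pow_mul (c ^ q), mul_comm q 2, pow_mul, e1, hcq]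
    have h6 : c ^ 8 = c ^ 6 := by
      have : (d ^ 2) ^ 2 = (c * c ^ q * c ^ (q ^ 2)) ^ 2 := by rw [hN]
      rw [mul_pow, mul_pow, e1, e2, ← hc2] at this
      linear_combination this
    have hcc : c ^ 2 = 1 := by
      have h7 : c ^ 6 * (c ^ 2 - 1) = 0 := by linear_combination h6
      rcases mul_eq_zero.mp h7 with h8 | h8
      · exact absurd (pow_eq_zero_iff (by norm_num) |>.mp h8) hc0
      · linear_combination h8
    have hd1 : d = 1 := by rw [← hc2, hcc]
    have hN1 : c * c ^ q * c ^ (q ^ 2) = 1 := by rw [← hN, hd1, one_pow]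
    have hc1 : c = 1 := by
      have h9 : (c - 1) * (c + 1) = 0 := by linear_combination hcc
      rcases mul_eq_zero.mp h9 with h10 | h10
      · linear_combination h10
      · have hcm : c = -1 := by linear_combination h10
        have hm2 : (-1 : F) ^ (q ^ 2) = -1 := by rw [sq, pow_mul, hm1, hm1]
        rw [hcm, hm1, hm2] at hN1
        rw [hcm]
        linear_combination hN1
    have hbb : b = b' := by
      have := hd1
      rw [hd, div_eq_one_iff_eq hb0'] at this
      exact this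
    have haa : a = a' := by
      have := hc1
      rw [hc, div_eq_one_iff_eq ha0'] at this
      exact this
    subst hbb; subst haa
    rfl
  rw [← hX]
  exact le_antisymm (Nat.card_le_card_of_injective ι hι) (Nat.card_le_card_of_injective Ψ hΨ)

end Cfsg.Agent.H23
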