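import Cfsg.Agent.H23.TwD4f

set_option autoImplicit false
set_option maxRecDepth 100000

/-!
# The order of `³D₄(q)`: the cells
-/

namespace Cfsg.Agent.H23

open Cfsg.Lie

def repsbD4 : List (List (List ℕ)) := [[], [[1]], [[0, 2, 3]], [[1], [0, 2, 3]], [[0, 2, 3], [1]],
  [[1], [0, 2, 3], [1]], [[0, 2, 3], [1], [0, 2, 3]], [[1], [0, 2, 3], [1], [0, 2, 3]],
  [[0, 2, 3], [1], [0, 2, 3], [1]], [[1], [0, 2, 3], [1], [0, 2, 3], [1]],
  [[0, 2, 3], [1], [0, 2, 3], [1], [0, 2, 3]], [[1], [0, 2, 3], [1], [0, 2, 3], [1], [0, 2, 3]]]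

def repsD4 : List (List ℕ) := repsbD4.map List.flatten

theorem twD4_repsb : ∀ bs ∈ repsbD4, ∀ L ∈ bs, L ∈ blkD4 := by decide +kernel

theorem twD4_step : ∀ w ∈ repsD4, ∀ L ∈ blkD4, ∃ w' ∈ repsD4,
    ∀ s < chevD4.nroots, reflW chevD4 (w ++ L) s = reflW chevD4 w' s := by decide +kernel

theorem twD4_repinj : ∀ w ∈ repsD4, ∀ w' ∈ repsD4,
    (∀ s < chevD4.nroots, reflW chevD4 w s = reflW chevD4 w' s) → w = w' := by decide +kernel

theorem twD4_reps : TwReps chevD4 blkD4 repsD4 where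
  bw := by
    intro w hw
    obtain ⟨bs, hbs, rfl⟩ := List.mem_map.mp hw
    exact ⟨bs, twD4_repsb bs hbs, rfl⟩
  nil := ⟨[], by decide +kernel, fun s _ => rfl⟩
  step := twD4_step
  inj := twD4_repinj
  nodup := by decide +kernel

theorem twD4_invs : repsD4.map (fun w => invN chevD4 w.reverse) = [0, 1, 3, 4, 4, 5, 7, 8, 8, 9, 11, 12] := by
  decide +kernel

/-- The order of `³D₄(q)`. -/
theorem twD4_card {F : Type*} [Field F] [Fintype F] {q : ℕ} (hq : IsPrimePow q) (hF : Fintype.card F = q ^ 3) :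
    Nat.card ↥(twistedD4 F q) = q ^ 12 * (q ^ 2 - 1) * (q ^ 6 - 1) * (q ^ 8 + q ^ 4 + 1) := by
  obtain ⟨T, B, hG, hblk, hcard, -, -, -, -⟩ := tw_D4 hq hF
  have hV : SemV chevD4 F := trin_D4.semV chk_D4.tblOK F
  have hR : TwReps chevD4 B.blocks repsD4 := by rw [hblk]; exact twD4_reps
  have h := tw_card_cells (packB_D4 F) hV tabT_D4 tabL_D4 B hG w0bD4 tabW_D4b (by rw [hblk]; exact twD4_bw)
    hR q hcard
  have e : repsD4.map (fun w => q ^ invN chevD4 w.reverse) =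
      (repsD4.map (fun w => invN chevD4 w.reverse)).map (fun k => q ^ k) := by
    rw [List.map_map]; rfl
  rw [e, twD4_invs, twD4_numPos, twD4_cardH hq hF] at h
  rw [h]
  have hq1 : 1 ≤ q := hq.one_lt.le
  obtain ⟨m, rfl⟩ : ∃ m, q = m + 1 := ⟨q - 1, by omega⟩
  have e2 : (m + 1) ^ 2 - 1 = m * (m + 2) := Nat.sub_eq_of_eq_add (by ring)
  have e3 : (m + 1) ^ 3 - 1 = m * (m ^ 2 + 3 * m + 3) := Nat.sub_eq_of_eq_add (by ring)
  have e6 : (m + 1) ^ 6 - 1 = m * (m ^ 2 + 3 * m + 3) * ((m + 1) ^ 3 + 1) := Nat.sub_eq_of_eq_add (by ring)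
  rw [e2, e3, e6, Nat.add_sub_cancel]
  simp only [List.map_cons, List.map_nil, List.sum_cons, List.sum_nil]
  ring

end Cfsg.Agent.H23
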