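import Cfsg.Agent.H23.Tw12
import Cfsg.Agent.H23.TwE6e

set_option autoImplicit false
set_option maxRecDepth 100000

/-!
# The order of `H¹` in `²E₆(q)`
-/

namespace Cfsg.Agent.H23

open Cfsg.Lie

theorem twE6_cubeTab : ∀ r < chevE6.nroots, (zR chevE6 ctblE6 r 56 + 2 * zR chevE6 ctblE6 r 42 +
    zR chevE6 ctblE6 r 37 + 2 * zR chevE6 ctblE6 r 36) % 3 = 0 := by decide +kernel

section

variable {D : ChevalleyDatum} {F : Type*} [Field F] {ctbl : List ℕ}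

theorem dgR_one (r : ℕ) : dgR D r (1 : GL D.Idx F) = 1 := by
  unfold dgR
  by_cases h : r < D.nroots
  · rw [dif_pos h]; simp
  · rw [dif_neg h]

theorem dgR_inv (hS : Sem D F (zR D ctbl)) (hT : Tab D) (g : GL D.Idx F) (hg : g ∈ D.diagonalSubgroup F)
    (r : ℕ) : dgR D r g⁻¹ = (dgR D r g)⁻¹ := by
  unfold dgR
  by_cases h : r < D.nroots
  · rw [dif_pos h, dif_pos h]
    exact diag_inv_apply hS hT g hg _
  · rw [dif_neg h, dif_neg h, inv_one]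

end

section Field

variable {F : Type*} [Field F]

/-- The obstruction: a product of entries of an element of `H` is a cube. -/
theorem twE6_cube (h : GL chevE6.Idx F) (hh : h ∈ chevE6.diagonalSubgroup F) :
    ∃ b : F, b ^ 3 = dgR chevE6 56 h * dgR chevE6 42 h ^ 2 * dgR chevE6 37 h * dgR chevE6 36 h ^ 2 := by
  have hS := (packB_E6 F).sem
  have hT := (packB_E6 F).tab
  unfold ChevalleyDatum.diagonalSubgroup at hh
  induction hh using Subgroup.closure_induction with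
  | mem g hg =>
    obtain ⟨r, t, hr, ht, hg⟩ := hg
    have hg' : g = hU hS r t := eq_wordU hS g _ hg
    rw [hg', dgR_hU hS r hr t ht 56 (by decide), dgR_hU hS r hr t ht 42 (by decide),
      dgR_hU hS r hr t ht 37 (by decide), dgR_hU hS r hr t ht 36 (by decide)]
    obtain ⟨m, hm⟩ : ∃ m : ℤ, zR chevE6 ctblE6 r 56 + 2 * zR chevE6 ctblE6 r 42 +
        zR chevE6 ctblE6 r 37 + 2 * zR chevE6 ctblE6 r 36 = 3 * m :=
      ⟨_, (Int.mul_ediv_cancel' (Int.dvd_of_emod_eq_zero (twE6_cubeTab r hr))).symm⟩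
    refine ⟨t ^ m, ?_⟩
    rw [← zpow_natCast (t ^ m) 3, ← zpow_mul, ← zpow_natCast (t ^ zR chevE6 ctblE6 r 42) 2, ← zpow_mul,
      ← zpow_natCast (t ^ zR chevE6 ctblE6 r 36) 2, ← zpow_mul, ← zpow_add₀ ht, ← zpow_add₀ ht, ← zpow_add₀ ht]
    congr 1
    push_cast
    linarith
  | one => exact ⟨1, by simp [dgR_one]⟩
  | mul g g' hg hg' ihg ihg' =>
    obtain ⟨b, hb⟩ := ihg
    obtain ⟨b', hb'⟩ := ihg'
    refine ⟨b * b', ?_⟩
    rw [dgR_mul hS hT g g' hg hg', dgR_mul hS hT g g' hg hg', dgR_mul hS hT g g' hg hg',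
      dgR_mul hS hT g g' hg hg', mul_pow, hb, hb']
    ring
  | inv g hg ih =>
    obtain ⟨b, hb⟩ := ih
    refine ⟨b⁻¹, ?_⟩
    rw [dgR_inv hS hT g hg, dgR_inv hS hT g hg, dgR_inv hS hT g hg, dgR_inv hS hT g hg, inv_pow, hb]
    simp only [mul_inv, inv_pow]

theorem e6_ker_calc (q : ℕ) (hqq : ∀ t : F, (t ^ q) ^ q = t) (ρ₁ ρ₃ ζ ζ' : F)
    (h1 : ρ₁ ≠ 0) (hζ0 : ζ ≠ 0) (hρq : ρ₁ ^ q = ρ₁)
    (h56 : ζ ^ 2 = ζ') (h46 : ρ₁ ^ 2 = ρ₃) (h42 : ζ' ^ 2 = ρ₃ * ζ) (h39 : ρ₃ ^ 2 = ρ₁ * ζ' * ζ' ^ q) :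
    ρ₁ = 1 ∧ ρ₃ = 1 ∧ ζ ^ 3 = 1 ∧ ζ ^ (q + 1) = 1 ∧ ζ' = ζ ^ 2 := by
  subst h56 h46
  have e3 : ζ ^ 3 = ρ₁ ^ 2 := by
    have : ζ * (ζ ^ 3 - ρ₁ ^ 2) = 0 := by linear_combination h42
    rcases mul_eq_zero.mp this with h | h
    · exact absurd h hζ0
    · linear_combination h
  have hNq : (ζ ^ 2) ^ q = (ζ ^ q) ^ 2 := by rw [← pow_mul, ← pow_mul, mul_comm]
  rw [hNq] at h39
  have e39 : ρ₁ ^ 3 = (ζ * ζ ^ q) ^ 2 := by
    have : ρ₁ * (ρ₁ ^ 3 - (ζ * ζ ^ q) ^ 2) = 0 := by linear_combination h39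
    rcases mul_eq_zero.mp this with h | h
    · exact absurd h h1
    · linear_combination h
  have eN3 : (ζ * ζ ^ q) ^ 3 = ρ₁ ^ 4 := by
    have e : (ζ ^ q) ^ 3 = ρ₁ ^ 2 := by
      rw [← pow_mul, mul_comm, pow_mul, e3, ← pow_mul, mul_comm, pow_mul, hρq]
    rw [mul_pow, e3, e]; ring
  have key : ρ₁ = 1 ∧ ζ * ζ ^ q = 1 := by
    generalize ζ * ζ ^ q = N at e39 eN3 ⊢
    have h14 : ρ₁ ^ 4 ≠ 0 := pow_ne_zero _ h1
    have eN : N = ρ₁ ^ 2 := by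
      have : ρ₁ ^ 4 * (N - ρ₁ ^ 2) = 0 := by linear_combination (-N) * eN3 - (N ^ 2 + ρ₁ ^ 3) * e39
      rcases mul_eq_zero.mp this with h | h
      · exact absurd h h14
      · linear_combination h
    have hρ : ρ₁ = 1 := by
      have : ρ₁ ^ 3 * (ρ₁ - 1) = 0 := by linear_combination -(N + ρ₁ ^ 2) * eN - e39
      rcases mul_eq_zero.mp this with h | h
      · exact absurd h (pow_ne_zero _ h1)
      · linear_combination h
    exact ⟨hρ, by rw [eN, hρ]; simp⟩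
  obtain ⟨hρ, hN⟩ := key
  subst hρ
  refine ⟨rfl, by simp, by rw [e3]; simp, ?_, rfl⟩
  rw [pow_succ, mul_comm]
  exact hN

theorem e6_noncube (q m : ℕ) (hqm : q + 1 = 3 * m) (ω : F) (hω0 : ω ≠ 0)
    (hω : ∀ b : F, b ^ 3 ≠ ω) (j : ℕ) (hj : j = 1 ∨ j = 2) (c : F) : c ^ 3 ≠ ω ^ (j * (1 + 2 * q)) := by
  intro hc
  have hc0 : c ≠ 0 := by
    intro h
    rw [h] at hc
    have : ω ^ (j * (1 + 2 * q)) ≠ 0 := pow_ne_zero _ hω0
    exact this (by rw [← hc]; simp)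
  have e : ω ^ j * c ^ 3 = (ω ^ (2 * j * m)) ^ 3 := by
    rw [hc, ← pow_add, ← pow_mul]
    congr 1
    have e1 : j + j * (1 + 2 * q) = 2 * j * (q + 1) := by ring
    rw [e1, hqm]; ring
  have e2 : ω ^ j = (ω ^ (2 * j * m) / c) ^ 3 := by
    rw [div_pow, ← e]; field_simp
  rcases hj with rfl | rfl
  · exact hω _ (by rw [← e2, pow_one])
  · have hd0 : ω ^ (2 * 2 * m) / c ≠ 0 := div_ne_zero (pow_ne_zero _ hω0) hc0
    generalize ω ^ (2 * 2 * m) / c = d at e2 hd0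
    exact hω (ω / d) (by rw [div_pow, ← e2]; field_simp)

theorem e6_exists_noncube [Fintype F] (q : ℕ) (hF : Fintype.card F = q ^ 2) (h3 : 3 ∣ q + 1) :
    ∃ ω : F, ω ≠ 0 ∧ ∀ b : F, b ^ 3 ≠ ω := by
  classical
  have hcard : Fintype.card Fˣ = q ^ 2 - 1 := by rw [Fintype.card_units, hF]
  have h3' : 3 ∣ Fintype.card Fˣ := by
    rw [hcard]
    have : q ^ 2 - 1 = (q + 1) * (q - 1) := by
      cases q with
      | zero => simp
      | succ n => simp only [Nat.add_sub_cancel]; exact Nat.sub_eq_of_eq_add (by ring)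
    rw [this]
    exact Dvd.dvd.mul_right h3 _
  have : Fact (Nat.Prime 3) := ⟨Nat.prime_three⟩
  obtain ⟨ζ, hζ⟩ := exists_prime_orderOf_dvd_card 3 h3'
  have hninj : ¬ Function.Injective (fun x : Fˣ => x ^ 3) := by
    intro hinj
    have h1 : ζ ^ 3 = (1 : Fˣ) ^ 3 := by rw [one_pow, ← hζ, pow_orderOf_eq_one]
    have h2 : ζ = 1 := hinj h1
    rw [h2, orderOf_one] at hζ
    omega
  have hnsurj : ¬ Function.Surjective (fun x : Fˣ => x ^ 3) :=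
    fun h => hninj (Finite.injective_iff_surjective.mpr h)
  unfold Function.Surjective at hnsurj
  push Not at hnsurj
  obtain ⟨ω, hω⟩ := hnsurj
  refine ⟨ω, ω.ne_zero, fun b hb => ?_⟩
  have hb0 : b ≠ 0 := by
    rintro rfl
    exact ω.ne_zero (by rw [← hb]; simp)
  exact hω (Units.mk0 b hb0) (Units.ext (by simpa using hb))

end Field

end Cfsg.Agent.H23
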