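import Cfsg.Agent.H23.TwE6h

set_option autoImplicit false
set_option maxRecDepth 100000

/-!
# The order of `H¹` in `²E₆(q)`: the count
-/

namespace Cfsg.Agent.H23

open Cfsg.Lie

/-- The non-zero fixed elements. -/
abbrev twE6Fix (F : Type*) [Field F] (q : ℕ) : Type _ := {b : F // b ^ q = b ∧ b ≠ 0}

/-- The non-zero elements. -/
abbrev twE6Nz (F : Type*) [Field F] : Type _ := {a : F // a ≠ 0}

/-- The parameters of `H¹`. -/
abbrev twE6X (F : Type*) [Field F] (q : ℕ) : Type _ := (twE6Fix F q × twE6Fix F q) × (twE6Nz F × twE6Nz F)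

/-- `gcd(3, q + 1) · |H¹| = (q - 1)⁴ (q + 1)²` for `²E₆(q)`. -/
theorem twE6_cardH {F : Type*} [Field F] [Fintype F] {q : ℕ} (hq : IsPrimePow q) (hF : Fintype.card F = q ^ 2) :
    Nat.gcd 3 (q + 1) * Nat.card ↥(chevE6.diagonalSubgroup F ⊓ twistedE6 F q) = (q - 1) ^ 4 * (q + 1) ^ 2 := by
  classical
  obtain ⟨T, B, hG, hblk, hcard, hφT, hsig, -, -⟩ := tw_E6 hq hF
  have hS := (packB_E6 F).sem
  have hT := (packB_E6 F).tab
  have hq1 : 1 < q := hq.one_lt
  have hm1 : (-1 : F) ^ q = -1 := by rw [← hφT]; simp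
  have hqq : ∀ t : F, (t ^ q) ^ q = t := by
    intro t
    rw [← pow_mul, ← sq, ← hF, FiniteField.pow_card]
  have hFx : Nat.card (twE6Fix F q) = q - 1 := by
    have hA : Nat.card {s : F | T.φ s = s} = q := frob_card_fixed F q 2 Nat.prime_two hq1 hF T.φ hφT
    show Nat.card ↥({b : F | b ^ q = b ∧ b ≠ 0}) = q - 1
    have e : {b : F | b ^ q = b ∧ b ≠ 0} = {s : F | T.φ s = s} \ {0} := by
      ext b
      simp [hφT]
    rw [Nat.card_coe_set_eq, e, Set.ncard_sdiff_singleton_of_mem (by simp), ← Nat.card_coe_set_eq, hA]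
  have hUx : Nat.card (twE6Nz F) = q ^ 2 - 1 := by
    show Nat.card {a : F // a ≠ 0} = _
    rw [← Nat.card_congr (unitsEquivNeZero (G₀ := F)), Nat.card_eq_fintype_card, Fintype.card_units, hF]
  have hX : Nat.card (twE6X F q) = (q - 1) ^ 2 * (q ^ 2 - 1) ^ 2 := by
    rw [Nat.card_prod, Nat.card_prod, Nat.card_prod, hFx, hUx]; ring
  have hdg : ∀ h ∈ chevE6.diagonalSubgroup F ⊓ twistedE6 F q,
      dgR chevE6 46 h ^ q = dgR chevE6 46 h ∧ dgR chevE6 39 h ^ q = dgR chevE6 39 h ∧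
        dgR chevE6 36 h = dgR chevE6 56 h ^ q ∧ dgR chevE6 37 h = dgR chevE6 42 h ^ q := by
    intro h hh
    have hfix := hG.fix h hh.2
    have e1 := dgR_equiv (packB_E6 F) T h hh.1 hfix 1 (by decide)
    have e3 := dgR_equiv (packB_E6 F) T h hh.1 hfix 3 (by decide)
    have e0 := dgR_equiv (packB_E6 F) T h hh.1 hfix 0 (by decide)
    have e2 := dgR_equiv (packB_E6 F) T h hh.1 hfix 2 (by decide)
    rw [hsig, hφT] at e0 e1 e2 e3
    rw [twE6_sigs.2.1, twE6_simples.2.1] at e1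
    rw [twE6_sigs.2.2.2.1, twE6_simples.2.2.2.1] at e3
    rw [twE6_sigs.1, twE6_simples.2.2.2.2.2, twE6_simples.1] at e0
    rw [twE6_sigs.2.2.1, twE6_simples.2.2.2.2.1, twE6_simples.2.2.1] at e2
    exact ⟨e1.symm, e3.symm, e0, e2⟩
  let ι : ↥(chevE6.diagonalSubgroup F ⊓ twistedE6 F q) → twE6X F q := fun h =>
    ((⟨dgR chevE6 46 (h : GL chevE6.Idx F), (hdg h h.2).1, dgR_ne_zero hS hT h h.2.1 46⟩,
      ⟨dgR chevE6 39 (h : GL chevE6.Idx F), (hdg h h.2).2.1, dgR_ne_zero hS hT h h.2.1 39⟩),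
      (⟨dgR chevE6 56 (h : GL chevE6.Idx F), dgR_ne_zero hS hT h h.2.1 56⟩,
      ⟨dgR chevE6 42 (h : GL chevE6.Idx F), dgR_ne_zero hS hT h h.2.1 42⟩))
  have hι' : ∀ h h' : ↥(chevE6.diagonalSubgroup F ⊓ twistedE6 F q),
      dgR chevE6 46 (h : GL chevE6.Idx F) = dgR chevE6 46 (h' : GL chevE6.Idx F) →
      dgR chevE6 39 (h : GL chevE6.Idx F) = dgR chevE6 39 (h' : GL chevE6.Idx F) →
      dgR chevE6 56 (h : GL chevE6.Idx F) = dgR chevE6 56 (h' : GL chevE6.Idx F) →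
      dgR chevE6 42 (h : GL chevE6.Idx F) = dgR chevE6 42 (h' : GL chevE6.Idx F) → h = h' := by
    intro h h' e46 e39 e56 e42
    apply Subtype.ext
    apply diag_eq_of_dgR (packB_E6 F) _ _ h.2.1 h'.2.1
    intro i hi
    have hi6 : i < 6 := hi
    have hcases : i = 0 ∨ i = 1 ∨ i = 2 ∨ i = 3 ∨ i = 4 ∨ i = 5 := by omega
    rcases hcases with rfl | rfl | rfl | rfl | rfl | rfl
    · rw [twE6_simples.1]; exact e56
    · rw [twE6_simples.2.1]; exact e46
    · rw [twE6_simples.2.2.1]; exact e42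
    · rw [twE6_simples.2.2.2.1]; exact e39
    · rw [twE6_simples.2.2.2.2.1, (hdg h h.2).2.2.2, (hdg h' h'.2).2.2.2, e42]
    · rw [twE6_simples.2.2.2.2.2, (hdg h h.2).2.2.1, (hdg h' h'.2).2.2.1, e56]
  have hι : Function.Injective ι := by
    intro h h' e
    exact hι' h h' (congrArg (fun x : twE6X F q => (x.1.1 : F)) e) (congrArg (fun x : twE6X F q => (x.1.2 : F)) e)
      (congrArg (fun x : twE6X F q => (x.2.1 : F)) e) (congrArg (fun x : twE6X F q => (x.2.2 : F)) e)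
  let Ψ : twE6X F q → ↥(chevE6.diagonalSubgroup F ⊓ twistedE6 F q) := fun x =>
    ⟨hE6 F q x.1.1.1 x.1.2.1 x.2.1.1 x.2.2.1, hE6_mem_diag q _ _ _ _ x.1.1.2.2 x.1.2.2.2 x.2.1.2 x.2.2.2,
      hE6_mem q hm1 _ _ _ _ x.1.1.2.1 x.1.2.2.1⟩
  have hker : ∀ x x' : twE6X F q, Ψ x = Ψ x' → x.1 = x'.1 ∧ ∃ ζ : F, ζ ^ 3 = 1 ∧ ζ ^ (q + 1) = 1 ∧
      (x.2.1 : F) = ζ * x'.2.1 ∧ (x.2.2 : F) = ζ ^ 2 * x'.2.2 := by
    rintro ⟨⟨⟨c₁, h1q, h10⟩, ⟨c₃, h3q, h30⟩⟩, ⟨⟨c, hc0⟩, ⟨c', hc'0⟩⟩⟩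
      ⟨⟨⟨b₁, g1q, g10⟩, ⟨b₃, g3q, g30⟩⟩, ⟨⟨b, hb0⟩, ⟨b', hb'0⟩⟩⟩ e
    have e' : hE6 F q c₁ c₃ c c' = hE6 F q b₁ b₃ b b' := congrArg Subtype.val e
    have d56 := congrArg (dgR chevE6 56) e'
    have d46 := congrArg (dgR chevE6 46) e'
    have d42 := congrArg (dgR chevE6 42) e'
    have d39 := congrArg (dgR chevE6 39) e'
    rw [(hE6_dg q c₁ c₃ c c' h10 h30 hc0 hc'0).1, (hE6_dg q b₁ b₃ b b' g10 g30 hb0 hb'0).1] at d56
    rw [(hE6_dg q c₁ c₃ c c' h10 h30 hc0 hc'0).2.1, (hE6_dg q b₁ b₃ b b' g10 g30 hb0 hb'0).2.1] at d46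
    rw [(hE6_dg q c₁ c₃ c c' h10 h30 hc0 hc'0).2.2.1, (hE6_dg q b₁ b₃ b b' g10 g30 hb0 hb'0).2.2.1] at d42
    rw [(hE6_dg q c₁ c₃ c c' h10 h30 hc0 hc'0).2.2.2, (hE6_dg q b₁ b₃ b b' g10 g30 hb0 hb'0).2.2.2] at d39
    have hcq0 : c' ^ q ≠ 0 := pow_ne_zero _ hc'0
    have hbq0 : b' ^ q ≠ 0 := pow_ne_zero _ hb'0
    have k56 : (c / b) ^ 2 = c' / b' := by
      rw [div_pow]
      field_simp
      field_simp at d56
      linear_combination d56
    have k46 : (c₁ / b₁) ^ 2 = c₃ / b₃ := by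
      rw [div_pow]
      field_simp
      field_simp at d46
      linear_combination d46
    have k42 : (c' / b') ^ 2 = c₃ / b₃ * (c / b) := by
      rw [div_pow]
      field_simp
      field_simp at d42
      linear_combination d42
    have k39 : (c₃ / b₃) ^ 2 = c₁ / b₁ * (c' / b') * (c' / b') ^ q := by
      rw [div_pow, div_pow]
      generalize c' ^ q = C at d39 hcq0 ⊢
      generalize b' ^ q = B at d39 hbq0 ⊢
      field_simp
      field_simp at d39
      linear_combination d39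
    obtain ⟨r1, r3, z3, zq, zz⟩ := e6_ker_calc q hqq (c₁ / b₁) (c₃ / b₃) (c / b) (c' / b')
      (div_ne_zero h10 g10) (div_ne_zero hc0 hb0) (by rw [div_pow, h1q, g1q]) k56 k46 k42 k39
    have hc1 : c₁ = b₁ := (div_eq_one_iff_eq g10).mp r1
    have hc3 : c₃ = b₃ := (div_eq_one_iff_eq g30).mp r3
    subst hc1; subst hc3
    refine ⟨rfl, c / b, z3, zq, ?_, ?_⟩
    · show c = c / b * b
      field_simp
    · show c' = (c / b) ^ 2 * b'
      rw [← zz]
      field_simp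
  have hlow : Nat.card (twE6X F q) ≤
      Nat.gcd 3 (q + 1) * Nat.card ↥(chevE6.diagonalSubgroup F ⊓ twistedE6 F q) := by
    haveI : Fintype (twE6X F q) := Fintype.ofFinite _
    haveI : Fintype ↥(chevE6.diagonalSubgroup F ⊓ twistedE6 F q) := Fintype.ofFinite _
    rw [Nat.card_eq_fintype_card, Nat.card_eq_fintype_card]
    have hd0 : 0 < Nat.gcd 3 (q + 1) := Nat.gcd_pos_of_pos_left _ (by norm_num)
    have hfib : ∀ y ∈ (Finset.univ : Finset (twE6X F q)).image Ψ,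
        ((Finset.univ : Finset (twE6X F q)).filter (fun a => Ψ a = y)).card ≤ Nat.gcd 3 (q + 1) := by
      intro y hy
      obtain ⟨x₀, -, hx₀⟩ := Finset.mem_image.mp hy
      have h0 : (x₀.2.1 : F) ≠ 0 := x₀.2.1.2
      calc ((Finset.univ : Finset (twE6X F q)).filter (fun a => Ψ a = y)).card
          ≤ (Polynomial.nthRootsFinset (Nat.gcd 3 (q + 1)) (1 : F)).card := by
            apply Finset.card_le_card_of_injOn (fun x : twE6X F q => (x.2.1 : F) / x₀.2.1)
            · intro x hx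
              have hx' : Ψ x = Ψ x₀ := by rw [(Finset.mem_filter.mp hx).2, hx₀]
              obtain ⟨-, ζ, h3, hq1', hc, -⟩ := hker x x₀ hx'
              rw [Finset.mem_coe, Polynomial.mem_nthRootsFinset hd0]
              show ((x.2.1 : F) / x₀.2.1) ^ Nat.gcd 3 (q + 1) = 1
              have e : (x.2.1 : F) / x₀.2.1 = ζ := by rw [hc]; field_simp
              rw [e]
              exact pow_gcd_eq_one.mpr ⟨h3, hq1'⟩
            · intro x hx x' hx' e
              have hx1 : Ψ x = Ψ x₀ := by rw [(Finset.mem_filter.mp hx).2, hx₀]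
              have hx2 : Ψ x' = Ψ x₀ := by rw [(Finset.mem_filter.mp hx').2, hx₀]
              obtain ⟨e1, ζ, -, -, hc, hc'⟩ := hker x x₀ hx1
              obtain ⟨e1', ζ', -, -, hd, hd'⟩ := hker x' x₀ hx2
              have eζ : ζ = ζ' := by
                have e2 : (x.2.1 : F) / x₀.2.1 = (x'.2.1 : F) / x₀.2.1 := e
                rw [hc, hd] at e2
                field_simp at e2
                exact e2
              subst eζ
              refine Prod.ext (e1.trans e1'.symm) (Prod.ext (Subtype.ext ?_) (Subtype.ext ?_))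
              · rw [hc, hd]
              · rw [hc', hd']
        _ ≤ Nat.gcd 3 (q + 1) := by
            unfold Polynomial.nthRootsFinset
            exact (Multiset.toFinset_card_le _).trans (Polynomial.card_nthRoots _ _)
    calc Fintype.card (twE6X F q) = (Finset.univ : Finset (twE6X F q)).card := rfl
      _ ≤ Nat.gcd 3 (q + 1) * ((Finset.univ : Finset (twE6X F q)).image Ψ).card :=
          Finset.card_le_mul_card_image _ _ hfib
      _ ≤ Nat.gcd 3 (q + 1) * Fintype.card ↥(chevE6.diagonalSubgroup F ⊓ twistedE6 F q) :=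
          Nat.mul_le_mul_left _ (Finset.card_le_univ _)
  have hup : Nat.gcd 3 (q + 1) * Nat.card ↥(chevE6.diagonalSubgroup F ⊓ twistedE6 F q) ≤
      Nat.card (twE6X F q) := by
    rcases (Nat.dvd_prime Nat.prime_three).mp (Nat.gcd_dvd_left 3 (q + 1)) with h | h
    · rw [h, one_mul]
      exact Nat.card_le_card_of_injective ι hι
    · have h3 : 3 ∣ q + 1 := by
        have := Nat.gcd_dvd_right 3 (q + 1)
        rwa [h] at this
      rw [h]
      obtain ⟨ω, hω0, hω⟩ := e6_exists_noncube q hF h3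
      obtain ⟨m, hm⟩ := h3
      have hcube : ∀ h : ↥(chevE6.diagonalSubgroup F ⊓ twistedE6 F q), ∃ b : F, b ^ 3 =
          dgR chevE6 56 (h : GL chevE6.Idx F) * dgR chevE6 42 (h : GL chevE6.Idx F) ^ 2 *
            dgR chevE6 42 (h : GL chevE6.Idx F) ^ q * (dgR chevE6 56 (h : GL chevE6.Idx F) ^ q) ^ 2 := by
        intro h
        obtain ⟨b, hb⟩ := twE6_cube (h : GL chevE6.Idx F) h.2.1
        rw [(hdg h h.2).2.2.1, (hdg h h.2).2.2.2] at hb
        exact ⟨b, hb⟩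
      have key : ∀ (k k' : ℕ) (y y' z b b' : F), k < k' → k' < 3 → y' ≠ 0 → z ≠ 0 →
          ω ^ k * y = ω ^ k' * y' → b ^ 3 = y * z ^ 2 * z ^ q * (y ^ q) ^ 2 →
          b' ^ 3 = y' * z ^ 2 * z ^ q * (y' ^ q) ^ 2 → False := by
        intro k k' y y' z b b' hkk hk3 hy' hz e hb hb'
        obtain ⟨j, rfl⟩ : ∃ j, k' = k + j := ⟨k' - k, by omega⟩
        have hj : j = 1 ∨ j = 2 := by omega
        have hy : y = ω ^ j * y' := by
          have hk0 : ω ^ k ≠ 0 := pow_ne_zero _ hω0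
          apply mul_left_cancel₀ hk0
          rw [e, pow_add]; ring
        have hb'0 : b' ≠ 0 := by
          intro h0
          rw [h0] at hb'
          have : y' * z ^ 2 * z ^ q * (y' ^ q) ^ 2 ≠ 0 :=
            mul_ne_zero (mul_ne_zero (mul_ne_zero hy' (pow_ne_zero _ hz)) (pow_ne_zero _ hz))
              (pow_ne_zero _ (pow_ne_zero _ hy'))
          exact this (by rw [← hb']; simp)
        apply e6_noncube q m hm ω hω0 hω j hj (b / b')
        rw [div_pow, hb, hb', hy]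
        have hden : y' * z ^ 2 * z ^ q * (y' ^ q) ^ 2 ≠ 0 :=
          mul_ne_zero (mul_ne_zero (mul_ne_zero hy' (pow_ne_zero _ hz)) (pow_ne_zero _ hz))
            (pow_ne_zero _ (pow_ne_zero _ hy'))
        rw [div_eq_iff hden]
        ring
      let f : ↥(chevE6.diagonalSubgroup F ⊓ twistedE6 F q) × Fin 3 → twE6X F q := fun p =>
        ((ι p.1).1, (⟨ω ^ (p.2 : ℕ) * dgR chevE6 56 (p.1 : GL chevE6.Idx F),
          mul_ne_zero (pow_ne_zero _ hω0) (dgR_ne_zero hS hT _ p.1.2.1 56)⟩, (ι p.1).2.2))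
      have hf : Function.Injective f := by
        rintro ⟨h, k⟩ ⟨h', k'⟩ e
        have e46 : dgR chevE6 46 (h : GL chevE6.Idx F) = dgR chevE6 46 (h' : GL chevE6.Idx F) :=
          congrArg (fun x : twE6X F q => (x.1.1 : F)) e
        have e39 : dgR chevE6 39 (h : GL chevE6.Idx F) = dgR chevE6 39 (h' : GL chevE6.Idx F) :=
          congrArg (fun x : twE6X F q => (x.1.2 : F)) e
        have e56 : ω ^ (k : ℕ) * dgR chevE6 56 (h : GL chevE6.Idx F) =
            ω ^ (k' : ℕ) * dgR chevE6 56 (h' : GL chevE6.Idx F) :=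
          congrArg (fun x : twE6X F q => (x.2.1 : F)) e
        have e42 : dgR chevE6 42 (h : GL chevE6.Idx F) = dgR chevE6 42 (h' : GL chevE6.Idx F) :=
          congrArg (fun x : twE6X F q => (x.2.2 : F)) e
        obtain ⟨b, hb⟩ := hcube h
        obtain ⟨b', hb'⟩ := hcube h'
        have hkk : (k : ℕ) = k' := by
          rcases lt_trichotomy (k : ℕ) (k' : ℕ) with hlt | heq | hgt
          · exact absurd (key k k' _ _ _ b b' hlt k'.2 (dgR_ne_zero hS hT _ h'.2.1 56)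
              (dgR_ne_zero hS hT _ h.2.1 42) e56 hb (by rw [e42]; exact hb')) id
          · exact heq
          · exact absurd (key k' k _ _ _ b' b hgt k.2 (dgR_ne_zero hS hT _ h.2.1 56)
              (dgR_ne_zero hS hT _ h'.2.1 42) e56.symm hb' (by rw [← e42]; exact hb)) id
        have hk : k = k' := Fin.ext hkk
        subst hk
        have e56' : dgR chevE6 56 (h : GL chevE6.Idx F) = dgR chevE6 56 (h' : GL chevE6.Idx F) :=
          mul_left_cancel₀ (pow_ne_zero _ hω0) e56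
        rw [hι' h h' e46 e39 e56' e42]
      calc 3 * Nat.card ↥(chevE6.diagonalSubgroup F ⊓ twistedE6 F q)
          = Nat.card (↥(chevE6.diagonalSubgroup F ⊓ twistedE6 F q) × Fin 3) := by
            rw [Nat.card_prod, Nat.card_eq_fintype_card (α := Fin 3), Fintype.card_fin, mul_comm]
        _ ≤ Nat.card (twE6X F q) := Nat.card_le_card_of_injective f hf
  rw [le_antisymm hup hlow, hX]
  obtain ⟨m, rfl⟩ : ∃ m, q = m + 1 := ⟨q - 1, by omega⟩
  have e2 : (m + 1) ^ 2 - 1 = m * (m + 2) := Nat.sub_eq_of_eq_add (by ring)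
  rw [e2, Nat.add_sub_cancel]
  ring

end Cfsg.Agent.H23
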