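import Cfsg.Agent.H23.TwE6Dat
import Cfsg.Agent.H23.UProdTab

set_option autoImplicit false
set_option maxRecDepth 1000000

/-!
# Representatives of the twisted Weyl group of `²E₆(q)`: the checks
-/

namespace Cfsg.Agent.H23

open Cfsg.Lie

/-- Evaluates the argument before applying the function (for the kernel). -/
def forceNat (n : ℕ) (f : ℕ → Bool) : Bool := Nat.rec (f 0) (fun m _ => f (m + 1)) n

theorem forceNat_eq (n : ℕ) (f : ℕ → Bool) : forceNat n f = f n := by cases n <;> rfl

/-- A number determining a representative. -/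
def codeWE6 (w : List ℕ) : ℕ :=
  ((reflWT rTE6 w 46 * 72 + reflWT rTE6 w 39) * 72 + reflWT rTE6 w 56) * 72 + reflWT rTE6 w 42

/-- The check that the permutation `P` followed by the word `L` is `P'`. -/
def stepChkE6 (P : ℕ) (L : List ℕ) (P' : ℕ) : Bool :=
  (List.range 72).all (fun s => rlk P (reflWT rTE6 L s) == rlk P' s)

/-- The number of positive roots made negative by a packed permutation. -/
def lenPE6 (P : ℕ) : ℕ := ((List.range 72).filter (fun s => decide (36 ≤ s) && decide (rlk P s < 36))).length

theorem twE6_lengths : repsE6.length = 1152 ∧ permTE6.length = 1152 ∧ nextE6.length = 1152 ∧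
    lensE6.length = 1152 := by decide +kernel

theorem twE6_repsb : ∀ bs ∈ repsbE6, ∀ L ∈ bs, L ∈ blkE6 := by decide +kernel

theorem twE6_permT : ∀ p ∈ List.zip repsE6 permTE6, ∀ s < 72, reflWT rTE6 p.1 s = rlk p.2 s := by
  decide +kernel

theorem twE6_nextT : ∀ e ∈ List.zip permTE6 nextE6, ∀ k < 4, e.2.getD k 0 < 1152 ∧
    forceNat (permTE6.getD (e.2.getD k 0) 0) (fun P' => stepChkE6 e.1 (blkE6.getD k []) P') = true := by
  decide +kernel

theorem twE6_codes : List.IsChain (· < ·) (repsE6.map codeWE6) := by decide +kernel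

theorem twE6_lensT : permTE6.map lenPE6 = lensE6 := by decide +kernel

theorem twE6_cnt : (List.range 37).map (fun k => lensE6.count k) = cntE6 := by decide +kernel

theorem twE6_lens_lt : ∀ k ∈ lensE6, k < 37 := by decide +kernel

theorem twE6_negHalf : ∀ r < chevE6.nroots, chevE6.IsNegRoot r ↔ r < 36 := by decide +kernel

end Cfsg.Agent.H23
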