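import Cfsg.Agent.H23.TwE6j
import Cfsg.Agent.H23.TwE6i

set_option autoImplicit false
set_option maxRecDepth 1000000

/-!
# The order of `²E₆(q)`
-/

namespace Cfsg.Agent.H23

open Cfsg.Lie

theorem zip_getD_mem {α β : Type*} (l₁ : List α) (l₂ : List β) (a : α) (b : β) (i : ℕ) (h₁ : i < l₁.length)
    (h₂ : i < l₂.length) : (l₁.getD i a, l₂.getD i b) ∈ List.zip l₁ l₂ := by
  rw [List.getD_eq_getElem _ _ h₁, List.getD_eq_getElem _ _ h₂]
  have h : i < (List.zip l₁ l₂).length := by rw [List.length_zip]; exact lt_min h₁ h₂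
  have := List.getElem_mem h
  rwa [List.getElem_zip] at this

theorem card_filter_range (n : ℕ) (p : ℕ → Prop) [DecidablePred p] :
    ((Finset.range n).filter p).card = ((List.range n).filter (fun s => decide (p s))).length := rfl

theorem list_sum_pow_count (l : List ℕ) (n q : ℕ) (h : ∀ k ∈ l, k < n) :
    (l.map (fun k => q ^ k)).sum = ∑ k ∈ Finset.range n, l.count k * q ^ k := by
  rw [Finset.sum_list_map_count]
  simp only [smul_eq_mul]
  apply Finset.sum_subset
  · intro k hk; exact Finset.mem_range.mpr (h k (List.mem_toFinset.mp hk))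
  · intro k _ hk
    rw [List.count_eq_zero_of_not_mem (fun hmem => hk (List.mem_toFinset.mpr hmem)), zero_mul]

theorem twE6_rep_lt : ∀ w ∈ repsE6, ∀ i ∈ w, i < chevE6.rank := by
  intro w hw i hi
  obtain ⟨bs, hbs, rfl⟩ := List.mem_map.mp hw
  obtain ⟨L, hL, hiL⟩ := List.mem_flatten.mp hi
  exact (twE6_blk L (twE6_repsb bs hbs L hL)).1 i hiL

theorem twE6_getD_mem (i : ℕ) (hi : i < 1152) : repsE6.getD i [] ∈ repsE6 := by
  rw [List.getD_eq_getElem _ _ (by rw [twE6_lengths.1]; exact hi)]
  exact List.getElem_mem _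

/-- The packed permutations are those of the representatives. -/
theorem twE6_perm (i : ℕ) (hi : i < 1152) (s : ℕ) (hs : s < chevE6.nroots) :
    reflW chevE6 (repsE6.getD i []) s = rlk (permTE6.getD i 0) s := by
  rw [reflW_eq tabT_E6 _ (twE6_rep_lt _ (twE6_getD_mem i hi)) s hs]
  exact twE6_permT _ (zip_getD_mem repsE6 permTE6 [] 0 i (by rw [twE6_lengths.1]; exact hi)
    (by rw [twE6_lengths.2.1]; exact hi)) s hs

theorem twE6_blk_getD : ∀ L ∈ blkE6, ∃ k < 4, L = blkE6.getD k [] := by decide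

theorem twE6_nil_mem : [] ∈ repsE6 := by decide +kernel

theorem twE6_reps : TwReps chevE6 blkE6 repsE6 where
  bw := by
    intro w hw
    obtain ⟨bs, hbs, rfl⟩ := List.mem_map.mp hw
    exact ⟨bs, twE6_repsb bs hbs, rfl⟩
  nil := ⟨[], twE6_nil_mem, fun s _ => rfl⟩
  step := by
    intro w hw L hL
    obtain ⟨i, hi, rfl⟩ := List.getElem_of_mem hw
    have hi' : i < 1152 := by rw [← twE6_lengths.1]; exact hi
    rw [← List.getD_eq_getElem _ [] hi]
    obtain ⟨k, hk, rfl⟩ := twE6_blk_getD L hL
    obtain ⟨hj, hchk⟩ := twE6_nextT _ (zip_getD_mem permTE6 nextE6 0 [] i (by rw [twE6_lengths.2.1]; exact hi')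
      (by rw [twE6_lengths.2.2.1]; exact hi')) k hk
    rw [forceNat_eq] at hchk
    have hchk' : ∀ s < 72, rlk (permTE6.getD i 0) (reflWT rTE6 (blkE6.getD k []) s) =
        rlk (permTE6.getD ((nextE6.getD i []).getD k 0) 0) s := by
      intro s hs
      have := List.all_eq_true.mp hchk s (List.mem_range.mpr hs)
      exact beq_iff_eq.mp this
    have hLlt : ∀ a ∈ blkE6.getD k [], a < chevE6.rank := (twE6_blk _ hL).1
    refine ⟨repsE6.getD ((nextE6.getD i []).getD k 0) [], twE6_getD_mem _ hj, fun s hs => ?_⟩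
    rw [reflW_append, twE6_perm i hi' _ (reflW_lt tab_E6 _ hLlt s hs), reflW_eq tabT_E6 _ hLlt s hs,
      twE6_perm _ hj s hs]
    exact hchk' s hs
  inj := by
    intro w hw w' hw' h
    have hnd : (repsE6.map codeWE6).Nodup := (List.isChain_iff_pairwise.mp twE6_codes).nodup
    apply List.inj_on_of_nodup_map hnd hw hw'
    unfold codeWE6
    rw [← reflW_eq tabT_E6 w (twE6_rep_lt w hw) 46 (by decide), ← reflW_eq tabT_E6 w (twE6_rep_lt w hw) 39 (by decide),
      ← reflW_eq tabT_E6 w (twE6_rep_lt w hw) 56 (by decide), ← reflW_eq tabT_E6 w (twE6_rep_lt w hw) 42 (by decide),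
      ← reflW_eq tabT_E6 w' (twE6_rep_lt w' hw') 46 (by decide),
      ← reflW_eq tabT_E6 w' (twE6_rep_lt w' hw') 39 (by decide),
      ← reflW_eq tabT_E6 w' (twE6_rep_lt w' hw') 56 (by decide),
      ← reflW_eq tabT_E6 w' (twE6_rep_lt w' hw') 42 (by decide),
      h 46 (by decide), h 39 (by decide), h 56 (by decide), h 42 (by decide)]
  nodup := List.Nodup.of_map codeWE6 (List.isChain_iff_pairwise.mp twE6_codes).nodup

/-- The lengths of the representatives. -/
theorem twE6_invs : repsE6.map (fun w => invN chevE6 w.reverse) = lensE6 := by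
  apply List.ext_getElem
  · rw [List.length_map, twE6_lengths.1, twE6_lengths.2.2.2]
  · intro i h₁ h₂
    have hi : i < 1152 := by rw [← twE6_lengths.2.2.2]; exact h₂
    have hiR : i < repsE6.length := by rw [twE6_lengths.1]; exact hi
    have hiP : i < permTE6.length := by rw [twE6_lengths.2.1]; exact hi
    have e1 : ∀ (h : i < lensE6.length), lensE6[i] = lenPE6 (permTE6.getD i 0) := by
      rw [← twE6_lensT]
      intro h
      rw [List.getElem_map, List.getD_eq_getElem _ _ hiP]
    rw [List.getElem_map, e1 h₂, ← List.getD_eq_getElem _ [] hiR]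
    unfold invN lenPE6
    rw [List.reverse_reverse]
    have e2 : (Finset.range chevE6.nroots).filter (fun s => chevE6.IsPosRoot s ∧
        chevE6.IsNegRoot (reflW chevE6 (repsE6.getD i []) s)) =
        (Finset.range 72).filter (fun s => 36 ≤ s ∧ rlk (permTE6.getD i 0) s < 36) := by
      apply Finset.filter_congr
      intro s hs
      have hs' : s < chevE6.nroots := Finset.mem_range.mp hs
      rw [tabHalf_E6 s hs', twE6_negHalf _ (reflW_lt tab_E6 _ (twE6_rep_lt _ (twE6_getD_mem i hi)) s hs'),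
        twE6_perm i hi s hs']
      exact Iff.rfl
    rw [e2, card_filter_range]
    congr 1
    apply List.filter_congr
    intro s _
    simp

/-- The polynomial `∑ q^{l(w)}`. -/
def polyE6 (q : ℕ) : ℕ := ∑ k ∈ Finset.range 37, cntE6.getD k 0 * q ^ k

theorem twE6_cnt' : ∀ k < 37, lensE6.count k = cntE6.getD k 0 := by decide +kernel

theorem twE6_sum (q : ℕ) : (repsE6.map (fun w => q ^ invN chevE6 w.reverse)).sum = polyE6 q := by
  have e : repsE6.map (fun w => q ^ invN chevE6 w.reverse) = lensE6.map (fun k => q ^ k) := by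
    rw [← twE6_invs, List.map_map]; rfl
  rw [e, list_sum_pow_count lensE6 37 q twE6_lens_lt]
  unfold polyE6
  apply Finset.sum_congr rfl
  intro k hk
  rw [twE6_cnt' k (Finset.mem_range.mp hk)]

end Cfsg.Agent.H23
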