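import Cfsg.Agent.H23.TwE6k

set_option autoImplicit false
set_option maxRecDepth 1000000

/-!
# The order of `²E₆(q)`: the formula
-/

namespace Cfsg.Agent.H23

open Cfsg.Lie

theorem polyE6_eq (q : ℕ) (hq : 1 ≤ q) : (q - 1) ^ 4 * (q + 1) ^ 2 * polyE6 q =
    (q ^ 2 - 1) * (q ^ 5 + 1) * (q ^ 6 - 1) * (q ^ 8 - 1) * (q ^ 9 + 1) * (q ^ 12 - 1) := by
  have h2 : 1 ≤ q ^ 2 := Nat.one_le_pow _ _ hq
  have h6 : 1 ≤ q ^ 6 := Nat.one_le_pow _ _ hq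
  have h8 : 1 ≤ q ^ 8 := Nat.one_le_pow _ _ hq
  have h12 : 1 ≤ q ^ 12 := Nat.one_le_pow _ _ hq
  unfold polyE6
  simp only [Finset.sum_range_succ, Finset.sum_range_zero, cntE6, List.getD_cons_succ, List.getD_cons_zero]
  zify [hq, h2, h6, h8, h12]
  ring

/-- The order of `²E₆(q)`. -/
theorem twE6_card {F : Type*} [Field F] [Fintype F] {q : ℕ} (hq : IsPrimePow q) (hF : Fintype.card F = q ^ 2) :
    Nat.gcd 3 (q + 1) * Nat.card ↥(twistedE6 F q) =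
      q ^ 36 * (q ^ 2 - 1) * (q ^ 5 + 1) * (q ^ 6 - 1) * (q ^ 8 - 1) * (q ^ 9 + 1) * (q ^ 12 - 1) := by
  obtain ⟨T, B, hG, hblk, hcard, -, -, -, -⟩ := tw_E6 hq hF
  have hV : SemV chevE6 F := trin_E6.semV chk_E6.tblOK F
  have hR : TwReps chevE6 B.blocks repsE6 := by rw [hblk]; exact twE6_reps
  have h := tw_card_cells (packB_E6 F) hV tabT_E6 tabL_E6 B hG w0bE6 tabW_E6b (by rw [hblk]; exact twE6_bw)
    hR q hcard
  rw [twE6_sum q, twE6_numPos] at h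
  have hH := twE6_cardH hq hF
  have hP := polyE6_eq q hq.one_lt.le
  rw [h]
  calc Nat.gcd 3 (q + 1) * (q ^ 36 * Nat.card ↥(chevE6.diagonalSubgroup F ⊓ twistedE6 F q) * polyE6 q)
      = q ^ 36 * ((Nat.gcd 3 (q + 1) * Nat.card ↥(chevE6.diagonalSubgroup F ⊓ twistedE6 F q)) * polyE6 q) := by
        ring
    _ = q ^ 36 * ((q ^ 2 - 1) * (q ^ 5 + 1) * (q ^ 6 - 1) * (q ^ 8 - 1) * (q ^ 9 + 1) * (q ^ 12 - 1)) := by
        rw [hH, hP]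
    _ = _ := by ring

end Cfsg.Agent.H23
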